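import Cfsg.Agent.Lib.KCG.B
import Cfsg.Agent.Lib.KCT.Main

/-! Tools for assembling the class number theorems. -/

set_option autoImplicit false

namespace Cfsg.Agent.KC
variable {G : Type*} [Group G] [Finite G] {xs : List G}

theorem Reps.mem_dat (h : Reps xs) {y : G} (hy : y ≠ 1) : dat y ∈ xs.map dat := by
  obtain ⟨x, hx, r⟩ := h.cover y hy
  exact List.mem_map.2 ⟨x, hx, r.dat_eq⟩

/-- order and centralizer order of every nontrivial element -/
theorem Reps.oc (h : Reps xs) {L : List En} (e : xs.map dat = L) {S : Finset (ℕ × ℕ)}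
    (hS : ∀ x ∈ L, (x.1, x.2.2) ∈ S) (y : G) (hy : y ≠ 1) :
    (orderOf y, Nat.card (Subgroup.centralizer ({y} : Set G))) ∈ S := hS _ (e ▸ h.mem_dat hy)

/-- a sub-multiset of the data is realised by pairwise inequivalent elements -/
theorem Reps.sub (h : Reps xs) {M : List En} (hM : M.Subperm (xs.map dat)) :
    ∃ ys : List G, (∀ y ∈ ys, y ∈ xs) ∧ ys.Pairwise (fun x y => ¬ RC x y) ∧ ys.map dat = M := by
  obtain ⟨l, h1, h2⟩ := hM
  obtain ⟨l', h3, rfl⟩ := List.sublist_map_iff.1 h2
  have h4 : Relation.Comp (fun a b => a = List.map dat b) List.Perm M l' := by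
    rw [List.eq_map_comp_perm]; exact h1.symm
  obtain ⟨ys, rfl, h5⟩ := h4
  exact ⟨ys, fun y hy => h3.subset (h5.subset hy),
    (h5.pairwise_iff fun a b => a b.symm).2 (h.pw.sublist h3), rfl⟩

theorem Reps.ct_kill [IsSimpleGroup G] (hG : ¬ IsMulCommutative G) (h : Reps xs) {k g : ℕ} {L M : List En}
    (hk : Nat.card (ConjClasses G) = k) (hg : Nat.card G = g) (e : xs.map dat = L)
    (hM : M.Subperm L) (hp : ∀ x ∈ M, x.1 ∈ [2, 3, 5, 7, 11, 13, 17]) (hc : KCT.ctOK k g M = false) : False := by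
  subst hk hg e
  obtain ⟨ys, -, h2, rfl⟩ := h.sub hM
  rw [KCT.ct_sound hG ys (fun y hy => ?_) h2] at hc
  · exact Bool.noConfusion hc
  · have := hp _ (List.mem_map_of_mem hy)
    simp only [dat, List.mem_cons, List.not_mem_nil, or_false] at this
    rcases this with e | e | e | e | e | e | e <;> rw [e] <;> norm_num

/-- prime powers -/
def pps : List ℕ := [2, 3, 4, 5, 7, 8, 9, 11, 13, 16, 17, 32]

theorem pps_spec {n : ℕ} (h : n ∈ pps) : IsPrimePow n := by
  have key : ∀ p k : ℕ, p.Prime → IsPrimePow (p ^ (k + 1)) := fun p k hp => hp.isPrimePow.pow k.succ_ne_zero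
  simp only [pps, List.mem_cons, List.not_mem_nil, or_false] at h
  rcases h with rfl | rfl | rfl | rfl | rfl | rfl | rfl | rfl | rfl | rfl | rfl | rfl
  exacts [key 2 0 (by norm_num), key 3 0 (by norm_num), key 2 1 (by norm_num), key 5 0 (by norm_num),
    key 7 0 (by norm_num), key 2 2 (by norm_num), key 3 1 (by norm_num), key 11 0 (by norm_num),
    key 13 0 (by norm_num), key 2 3 (by norm_num), key 17 0 (by norm_num), key 2 4 (by norm_num)]

theorem Reps.eppo (h : Reps xs) {L : List En} (e : xs.map dat = L) (hp : ∀ x ∈ L, x.1 ∈ pps) (y : G) (hy : y ≠ 1) :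
    IsPrimePow (orderOf y) := pps_spec (hp _ (e ▸ h.mem_dat hy))

end Cfsg.Agent.KC
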