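import Cfsg.Agent.Lib.KCT.Chk

/-! Partial character tables with eleven rows that do not exist. -/

set_option autoImplicit false
set_option maxRecDepth 100000
set_option Elab.async false

namespace Cfsg.Agent.KC
open KCT

theorem k11_720_a : ctOK 11 720 [(2, 1, 24), (5, 1, 5)] = false := by
  decide +kernel

theorem k11_720_b : ctOK 11 720 [(3, 1, 18), (5, 1, 5)] = false := by
  decide +kernel

theorem k11_756_a : ctOK 11 756 [(7, 2, 7)] = false := by
  decide +kernel

theorem k11_1344_a : ctOK 11 1344 [(2, 1, 48), (3, 1, 6), (7, 2, 7)] = false := by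
  decide +kernel

theorem k11_1512_a : ctOK 11 1512 [(3, 1, 9), (3, 1, 9), (7, 1, 7)] = false := by
  decide +kernel

theorem k11_1920_a : ctOK 11 1920 [(3, 1, 6), (5, 1, 5)] = false := by
  decide +kernel

theorem k11_7920_a : ctOK 11 7920 [(3, 1, 18), (5, 1, 5), (11, 2, 11)] = false := by
  decide +kernel

theorem k11_15600_a : ctOK 11 15600 [(3, 1, 6), (5, 1, 25), (13, 3, 13)] = false := by
  decide +kernel

theorem k11_86016_a : ctOK 11 86016 [(3, 1, 6), (7, 2, 7)] = false := by
  decide +kernel

end Cfsg.Agent.KC
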