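import Cfsg.Agent.Lib.KC.Snd3
import Cfsg.Agent.Lib.KC.Defs

/-! Representatives of the rational classes and the conditions used at the leaves. -/

set_option autoImplicit false

namespace Cfsg.Agent.KC

/-- representatives of the nontrivial rational classes -/
structure Reps {G : Type*} [Group G] (xs : List G) : Prop where
  ne : ∀ x ∈ xs, x ≠ 1
  pw : xs.Pairwise fun x y => ¬ RC x y
  cover : ∀ y : G, y ≠ 1 → ∃ x ∈ xs, RC x y

/-- number of involutions -/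
def nI (g : ℕ) (L : List En) : ℕ := ((L.filter fun x => x.1 = 2).map fun x => g / x.2.2).sum

/-- largest gcd with the centralizer order of an involution -/
def mg2 (L : List En) (c : ℕ) : ℕ := ((L.filter fun x => x.1 = 2).map fun x => c.gcd x.2.2).foldr max 1

/-- further arithmetical conditions -/
structure Lf (g : ℕ) (L : List En) : Prop where
  bur : ∀ x ∈ L, ∀ p a, p.Prime → g ≠ x.2.2 * p ^ a
  inv : nI g L * nI g L ≤ nI g L +
    g * ((L.filter fun x => x.1 = 2 ∨ 2 * x.2.1 ∣ Nat.totient x.1).map fun x => x.2.1).sum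
  ilo : nI g L + ((L.filter fun x => IsPrimePow x.1 ∧ ¬ 2 ∣ x.2.2 ∧ 2 * x.2.1 ∣ Nat.totient x.1).map
    fun x => x.2.1 * (g / mg2 L x.2.2)).sum ≤ nI g L * nI g L
  frob : ∀ d, d ∣ g → d ∣ 1 + ((L.filter fun x => x.1 ∣ d).map fun x => x.2.1 * (g / x.2.2)).sum
  l3 : (3, 1, 3) ∈ L → L.Pairwise fun x y => ¬ (x.1 = 2 ∧ y.1 = 2)
  cyc : ∀ x ∈ L, ∀ n m, g = 2 ^ n * m → Odd m → 1 ≤ n → x.1 ≠ 2 ^ n
  idx : ∀ x ∈ L, 2 * g ∣ (g / (x.2.2 * (Nat.totient x.1 / x.2.1))).factorial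
  syl : ∀ x ∈ L, x.1.Prime → ¬ x.1 * x.1 ∣ g → g / (x.2.2 * ((x.1 - 1) / x.2.1)) % x.1 = 1
  sq : ∀ m q, q.Prime → ¬ q ∣ m → 1 < m → (∀ x ∈ L, x.1 = m → ¬ q * q ∣ x.2.2) →
    (L.filter fun x => x.1 = m * q).length ≤ (L.filter fun x => x.1 = m ∧ q ∣ x.2.2).length

end Cfsg.Agent.KC
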