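import Cfsg.Agent.Lib.KC.Tab
import Cfsg.Agent.Lib.KC.Leaf

/-! The test at the leaves. -/

set_option autoImplicit false

namespace Cfsg.Agent.KC
noncomputable section

def pha (n k : ℕ) : ℕ :=
  Nat.rec (motive := fun _ => ℕ) (nat_lit 0) (fun i ih => IFN(Nat.beq (Nat.gcd n i) (nat_lit 1), Nat.succ ih, ih)) k

theorem pha_eq (n : ℕ) : pha n n = Nat.totient n := by
  have : ∀ k, pha n k = ((Finset.range k).filter n.Coprime).card := by
    intro k
    induction k with
    | zero => rfl
    | succ k ih =>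
      have e : pha n (k + 1) = IFN(Nat.beq (Nat.gcd n k) 1, pha n k + 1, pha n k) := rfl
      rw [e, beq_eq', IFN_eq, Finset.range_add_one, Finset.filter_insert, ih]
      by_cases h : n.Coprime k
      · rw [if_pos h, if_pos (decide_eq_true h), Finset.card_insert_of_notMem (by simp)]
      · rw [if_neg h, if_neg (by simpa using h)]
  rw [this, Nat.totient_eq_card_coprime]

/-- sum over the entries -/
def sm (L : List En) (p : En → Bool) (f : En → ℕ) : ℕ :=
  List.rec (motive := fun _ => ℕ) (nat_lit 0) (fun x _ ih => IFN(p x, Nat.add (f x) ih, ih)) L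

theorem sm_eq (L : List En) (p : En → Bool) (f : En → ℕ) : sm L p f = ((L.filter p).map f).sum := by
  induction L with
  | nil => rfl
  | cons x L ih =>
    have e : sm (x :: L) p f = IFN(p x, f x + sm L p f, sm L p f) := rfl
    rw [e, ih, List.filter_cons]
    cases p x <;> simp

def mgB (L : List En) (c : ℕ) : ℕ :=
  List.rec (motive := fun _ => ℕ) (nat_lit 1)
    (fun x _ ih => IFN(Nat.beq x.1 (nat_lit 2), MX(Nat.gcd c x.2.2, ih), ih)) L

theorem mgB_eq (L : List En) (c : ℕ) : mgB L c = mg2 L c := by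
  induction L with
  | nil => rfl
  | cons x L ih =>
    have e : mgB (x :: L) c = IFN(Nat.beq x.1 2, MX(Nat.gcd c x.2.2, mgB L c), mgB L c) := rfl
    rw [e, MX_eq, ih, beq_eq', IFN_eq]
    unfold mg2
    rw [List.filter_cons]
    split_ifs <;> simp

/-- some divisor of `g` has the property -/
def anyD (g : ℕ) (f : ℕ → Bool) (n : ℕ) (ps : List En) : ℕ → Bool :=
  List.rec (motive := fun _ => ℕ → Bool) f
    (fun p _ ih => Nat.rec (motive := fun _ => ℕ → Bool) (fun _ => false)
      (fun _ ih2 v => IF(DV(v, g), IF(ih v, true, ih2 (Nat.mul v p.1)), false)) n) ps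

theorem anyD_spec {g n : ℕ} {f : ℕ → Bool} {ps : List En} {v : ℕ} (hv : v ∣ g) (h : anyD g f n ps v = true) :
    ∃ d, d ∣ g ∧ f d = true := by
  induction ps generalizing v with
  | nil => exact ⟨v, hv, h⟩
  | cons p ps ih =>
    have key : ∀ (k v : ℕ), Nat.rec (motive := fun _ => ℕ → Bool) (fun _ => false)
        (fun _ ih2 v => IF(DV(v, g), IF(anyD g f n ps v, true, ih2 (Nat.mul v p.1)), false)) k v = true →
        ∃ d, d ∣ g ∧ f d = true := by
      intro k
      induction k with
      | zero => intro v h; simp at h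
      | succ k ih2 =>
        intro v h
        dsimp only at h
        rw [DV_eq, IF_eq, IF_eq] at h
        split_ifs at h with h1 h2
        · exact ih (of_decide_eq_true h1) h2
        · exact ih2 _ h
    exact key n v h

/-- entries with distinct prime orders -/
def prs (L : List En) : List En :=
  List.rec (motive := fun _ => List En) []
    (fun x _ ih => Bool.rec (motive := fun _ => List En) ih
      (Bool.rec (motive := fun _ => List En) (x :: ih) ih (anyL ih fun y => Nat.beq y.1 x.1)) (isP x.1)) L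

theorem prs_spec {L : List En} {x : En} (h : x ∈ prs L) : x ∈ L ∧ isP x.1 = true := by
  induction L with
  | nil => exact absurd h List.not_mem_nil
  | cons y L ih =>
    have e : prs (y :: L) = if isP y.1 then (if (anyL (prs L) fun z => Nat.beq z.1 y.1) then prs L else y :: prs L)
        else prs L := by
      show Bool.rec (motive := fun _ => List En) (prs L) (Bool.rec (motive := fun _ => List En) (y :: prs L) (prs L)
        (anyL (prs L) fun z => Nat.beq z.1 y.1)) (isP y.1) = _
      cases isP y.1 <;> cases (anyL (prs L) fun z => Nat.beq z.1 y.1) <;> rfl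
    rw [e] at h
    split_ifs at h with h1 h2
    · exact ⟨List.mem_cons_of_mem _ (ih h).1, (ih h).2⟩
    · rcases List.mem_cons.1 h with rfl | h
      · exact ⟨List.mem_cons_self, h1⟩
      · exact ⟨List.mem_cons_of_mem _ (ih h).1, (ih h).2⟩
    · exact ⟨List.mem_cons_of_mem _ (ih h).1, (ih h).2⟩

def killB (g : ℕ) (L ps : List En) (m : ℕ) : Bool :=
  IF(anyL L fun x => anyL ps fun p => DV(Nat.div g x.2.2, Nat.pow p.1 (nat_lit 64)), true,
    IF(Nat.ble (Nat.mul m m) (Nat.add m (Nat.mul g (sm L (fun x => IF(Nat.beq x.1 (nat_lit 2), true,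
        DV(Nat.mul (nat_lit 2) x.2.1, pha x.1 x.1))) fun x => x.2.1))),
      IF(Nat.ble (Nat.add m (sm L (fun x => IF(DV(nat_lit 2, x.2.2), false,
          IF(DV(Nat.mul (nat_lit 2) x.2.1, pha x.1 x.1), anyL ps fun p => DV(x.1, Nat.pow p.1 (nat_lit 64)), false)))
          fun x => Nat.mul x.2.1 (Nat.div g (mgB L x.2.2)))) (Nat.mul m m),
        anyD g (fun d => IF(DV(d, Nat.succ (sm L (fun x => DV(x.1, d)) fun x => Nat.mul x.2.1 (Nat.div g x.2.2))),
          false, true)) (nat_lit 80) ps (nat_lit 1), true), true))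

def finB (sv : List (ℕ × List En)) (g : ℕ) (P : List En) : Bool :=
  IF(killB g P (prs P) (sm P (fun x => Nat.beq x.1 (nat_lit 2)) fun x => Nat.div g x.2.2), true,
    decide ((g, P.reverse) ∈ sv))

theorem sum_rev (L : List En) (p : En → Bool) (f : En → ℕ) :
    ((L.reverse.filter p).map f).sum = ((L.filter p).map f).sum :=
  (((List.reverse_perm L).filter p).map f).sum_eq

theorem mg2_rev (L : List En) (c : ℕ) : mg2 L.reverse c = mg2 L c :=
  (((List.reverse_perm L).filter _).map _).foldr_eq _

theorem finB_sound {M : ℕ} {sv : List (ℕ × List En)} (g : ℕ) (P : List En) (A : Ax M g P.reverse)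
    (h : finB sv g P = true) (F : Lf g P.reverse) : (g, P.reverse) ∈ sv := by
  unfold finB at h
  rw [IF_eq] at h
  split_ifs at h with h1
  swap
  · exact of_decide_eq_true h
  exfalso
  have hm : (sm P (fun x => Nat.beq x.1 (nat_lit 2)) fun x => Nat.div g x.2.2) = nI g P.reverse := by
    rw [sm_eq, nI, sum_rev]; simp only [beq_eq']; rfl
  have hp : ∀ p ∈ prs P, p.1.Prime := fun p hp =>
    prime_of_isP (A.bas p (by simpa using (prs_spec hp).1)).1 (prs_spec hp).2
  rw [hm] at h1
  unfold killB at h1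
  rw [IF_eq, if_neg, IF_eq, if_pos, IF_eq, if_pos] at h1
  · obtain ⟨d, hd, h⟩ := anyD_spec (one_dvd g) h1
    have := F.frob d hd
    rw [sum_rev, add_comm] at this
    rw [sm_eq, DV_eq, IF_eq, if_pos] at h
    · simp at h
    · simp only [DV_eq]; exact decide_eq_true this
  · rw [ble_eq', decide_eq_true_eq]
    refine le_trans (Nat.add_le_add_left ?_ _) F.ilo
    rw [sm_eq, sum_rev]
    simp only [mgB_eq, mg2_rev]
    refine (List.Sublist.map _ ?_).sum_le_sum (by simp)
    rw [← List.filter_congr (p := fun x => decide (x ∈ P) && _) (fun x hx => by rw [decide_eq_true hx, Bool.true_and])]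
    refine List.monotone_filter_right _ fun x hx => ?_
    rw [Bool.and_eq_true, decide_eq_true_eq, DV_eq, DV_eq, IF_eq, IF_eq, pha_eq] at hx
    obtain ⟨h2, hx⟩ := hx
    split_ifs at hx with a b
    obtain ⟨p, c, d⟩ := anyL_iff.1 hx
    rw [DV_eq, decide_eq_true_eq] at d
    obtain ⟨k, -, e⟩ := (Nat.dvd_prime_pow (hp p c)).1 d
    have := (A.bas x (by simpa using h2)).1
    refine decide_eq_true ⟨⟨p.1, k, (hp p c).prime, ?_, e.symm⟩, by simpa using a, of_decide_eq_true b⟩
    by_contra e1
    rw [show k = 0 by omega] at e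
    simp at e; omega
  · rw [ble_eq', decide_eq_true_eq]
    refine le_trans F.inv (le_of_eq ?_)
    rw [sm_eq, sum_rev]
    refine congrArg (fun p => _ + g * ((P.filter p).map fun x : En => x.2.1).sum) (funext fun x => ?_)
    rw [DV_eq, beq_eq', IF_eq, pha_eq]
    by_cases e : x.1 = 2 <;> simp [e] <;> rfl
  · intro h
    obtain ⟨x, hx, h⟩ := anyL_iff.1 h
    obtain ⟨p, c, d⟩ := anyL_iff.1 h
    rw [DV_eq, decide_eq_true_eq] at d
    obtain ⟨k, -, e⟩ := (Nat.dvd_prime_pow (hp p c)).1 d
    refine F.bur x (by simpa using hx) p.1 k (hp p c) ?_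
    rw [← e]
    exact (Nat.mul_div_cancel' ((Dvd.intro _ rfl).trans (A.bas x (by simpa using hx)).2.2.2.2.2.1)).symm

theorem mem_sv {M : ℕ} {OL : List ℕ} {tabs : ℕ → List TE} (hT : TabOK M tabs OL) {sv : List (ℕ × List En)}
    {N N' n : ℕ} (hN : 0 < N) (hN' : 0 < N')
    (hgo : ∀ i < N, ∀ j < N', go tabs (finB sv) (skipH N i N' j) n (st0 M) = true) {g : ℕ}
    {L : List En} (h : Ax M g L) (ho : ∀ y ∈ L, y.1 ∈ OL) (F : Lf g L) : (g, L) ∈ sv :=
  main_sound hT (Q := fun g L => Lf g L → (g, L) ∈ sv) finB_sound hN hN' hgo h ho F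

end
end Cfsg.Agent.KC
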