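import Cfsg.Agent.Lib.KC.Asm

/-! Decidable consequences of the leaf conditions. -/

set_option autoImplicit false

namespace Cfsg.Agent.KC

def sqP (L : List En) (m q : ℕ) : Prop := (∀ x ∈ L, x.1 = m → ¬ q * q ∣ x.2.2) →
    (L.filter fun x => x.1 = m * q).length ≤ (L.filter fun x => x.1 = m ∧ q ∣ x.2.2).length

instance decSqP (L : List En) (m q : ℕ) : Decidable (sqP L m q) := by unfold sqP; infer_instance

/-- decidable part of `Lf` -/
def K0 (g : ℕ) (L : List En) : Prop :=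
  ((3, 1, 3) ∈ L → L.Pairwise fun x y => ¬ (x.1 = 2 ∧ y.1 = 2)) ∧
  (∀ x ∈ L, x.1 ∈ [2, 4, 8, 16, 32] → x.1 ∣ g → 2 * x.1 ∣ g) ∧
  (∀ p ∈ [(2, 3), (3, 2), (2, 5), (5, 2), (4, 3), (3, 5), (5, 3), (9, 2), (3, 7), (7, 3)], sqP L p.1 p.2) ∧
  (∀ x ∈ L, g / (x.2.2 * (Nat.totient x.1 / x.2.1)) ≤ 40 →
    2 * g ∣ (g / (x.2.2 * (Nat.totient x.1 / x.2.1))).factorial) ∧
  (∀ x ∈ L, x.1 ∈ [2, 3, 5, 7, 11, 13, 17] → ¬ x.1 * x.1 ∣ g → g / (x.2.2 * ((x.1 - 1) / x.2.1)) % x.1 = 1)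

instance decK0 (g : ℕ) (L : List En) : Decidable (K0 g L) := by unfold K0; infer_instance

theorem Lf.k0 {g : ℕ} {L : List En} (F : Lf g L) : K0 g L := by
  refine ⟨F.l3, fun x hx h1 h2 => ?_, fun p hp => ?_, fun x hx _ => F.idx x hx, fun x hx h => F.syl x hx ?_⟩
  · obtain ⟨m, hm⟩ := h2
    by_contra h3
    have h4 : Odd m := Nat.not_even_iff_odd.1 fun ⟨r, hr⟩ => h3 ⟨r, by rw [hm, hr]; ring⟩
    simp only [List.mem_cons, List.not_mem_nil, or_false] at h1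
    rcases h1 with e | e | e | e | e <;> rw [e] at hm
    exacts [F.cyc x hx 1 m hm h4 (by norm_num) e, F.cyc x hx 2 m hm h4 (by norm_num) e,
      F.cyc x hx 3 m hm h4 (by norm_num) e, F.cyc x hx 4 m hm h4 (by norm_num) e, F.cyc x hx 5 m hm h4 (by norm_num) e]
  · simp only [List.mem_cons, List.not_mem_nil, or_false] at hp
    rcases hp with rfl | rfl | rfl | rfl | rfl | rfl | rfl | rfl | rfl | rfl <;>
      exact F.sq _ _ (by norm_num) (by norm_num) (by norm_num)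
  · simp only [List.mem_cons, List.not_mem_nil, or_false] at h
    rcases h with e | e | e | e | e | e | e <;> rw [e] <;> norm_num

end Cfsg.Agent.KC
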