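import Cfsg.Agent.Lib.KC.New
import Cfsg.Agent.Lib.KC.Kill
import Cfsg.Agent.Lib.KCG.E
import Cfsg.Agent.Lib.KCG.F

/-! More decidable conditions on the class data. -/

set_option autoImplicit false
set_option synthInstance.maxSize 4000
set_option synthInstance.maxHeartbeats 400000

namespace Cfsg.Agent.KC

/-- at most one class of involutions -/
def one2 (L : List En) : Prop := L.Pairwise fun x y => ¬ (x.1 = 2 ∧ y.1 = 2)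

instance decOne2 (L : List En) : Decidable (one2 L) := by unfold one2; infer_instance

def r9P (L : List En) : Prop := ∀ x ∈ L, x.1 ∈ [2, 3] → ∃ S ∈ (L.filter fun y =>
    x.1 ∣ y.1 ∧ x.1 < y.1 ∧ ¬ x.1 ∣ y.1 / x.1 ∧ y.2.2 ∣ x.2.2 ∧ x.2.1 ∣ y.2.1).sublists,
  (∀ d ∈ [2, 3, 4, 8, 9, 16], d ∣ x.2.2 → ¬ x.1 ∣ d → d ∣ 1 + ((S.filter fun y => y.1 / x.1 ∣ d).map
    fun y => y.2.1 / x.2.1 * (x.2.2 / y.2.2)).sum) ∧
  ∀ q ∈ [2, 3, 5], q ≠ x.1 → q ∣ x.2.2 → ¬ q * q ∣ x.2.2 → (S.filter fun y => y.1 = x.1 * q).length = 1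

instance decR9 (L : List En) : Decidable (r9P L) := by unfold r9P; infer_instance

def pwP (L : List En) : Prop := ∀ x ∈ L, ∀ d ∈ [2, 3, 4], d ∣ x.1 → ∃ y ∈ L, y.1 = d ∧
  x.2.2 ∣ y.2.2 ∧ y.2.1 ∣ x.2.1 ∧ x.2.2 * (Nat.totient x.1 / x.2.1) ∣ y.2.2 * (Nat.totient y.1 / y.2.1)

instance decPw (L : List En) : Decidable (pwP L) := by unfold pwP; infer_instance

def t4P (g : ℕ) (L : List En) : Prop := ∀ x ∈ L, x.1 ∈ [2, 4, 8, 16, 32] → ¬ 8 ∣ x.2.2 →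
  ((x.1 = 2 ∧ ¬ 8 ∣ g ∧ ∀ y ∈ L, ¬ 4 ∣ y.1) ∨ (x.1 = 4 ∧ x.2.1 = 1 ∧ ¬ 16 ∣ g ∧ ∀ y ∈ L, ¬ 8 ∣ y.1)) ∧
    L.Pairwise fun y z => ¬ (y.1 = 2 ∧ z.1 = 2) ∧ ¬ (y.1 = 4 ∧ z.1 = 4)

instance decT4 (g : ℕ) (L : List En) : Decidable (t4P g L) := by unfold t4P; infer_instance

/-- the conditions -/
def K1 (g : ℕ) (L : List En) : Prop :=
  (∀ x ∈ L, x.1 = 3 → x.2.1 = 2 → 27 ∣ x.2.2) ∧
  (∀ x ∈ L, ∀ p ∈ [(2, 2), (2, 3), (3, 2)], x.1 = p.1 ^ p.2 → p.1 * x.1 ∣ g →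
    p.1 * x.1 ∣ x.2.2 * (Nat.totient x.1 / x.2.1)) ∧
  (one2 L → (∀ x ∈ L, ¬ 4 ∣ x.1) → ∀ n < 12, 2 ^ (n + 1) ∣ g → ¬ 2 ∣ g / 2 ^ (n + 1) → 2 ^ (n + 1) - 1 ∣ g) ∧
  (∀ p ∈ [(2, 3), (3, 2)], (L.filter fun x => x.1 = p.1 * p.2 ∧ ¬ p.2 * p.2 ∣ x.2.2).length ≤
    (L.filter fun x => x.1 = p.1 ∧ p.2 ∣ x.2.2 ∧ ¬ p.2 * p.2 ∣ x.2.2).length) ∧
  t4P g L ∧ pwP L ∧ r9P L

instance decK1 (g : ℕ) (L : List En) : Decidable (K1 g L) := by unfold K1; infer_instance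

theorem Reps.k1 {G : Type*} [Group G] [Finite G] [IsSimpleGroup G] (hG : ¬ IsMulCommutative G) {xs : List G}
    (h : Reps xs) : K1 (Nat.card G) (xs.map dat) := by
  refine ⟨n3' hG, fun x hx p hp => gr x hx _ _ ?_, fun h1 h2 n _ h3 h4 => h.ea h1 h2 (Nat.mul_div_cancel' h3).symm h4,
    fun p hp => KCG.sq2 h _ _ ?_ ?_ ?_, fun x hx h1 => ?_, fun x hx d hd h1 => h.pow x hx d h1 ?_, fun x hx h1 => ?_⟩
  · revert p; decide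
  · revert p; decide
  · revert p; decide
  · revert p; decide
  · obtain ⟨a, ha⟩ : ∃ a, x.1 = 2 ^ a := by
      simp only [List.mem_cons, List.not_mem_nil, or_false] at h1
      rcases h1 with e | e | e | e | e
      exacts [⟨1, e⟩, ⟨2, e⟩, ⟨3, e⟩, ⟨4, e⟩, ⟨5, e⟩]
    exact KCG.t4 hG h x hx a ha
  · clear h1; revert d; decide
  · have hp : x.1.Prime := by
      generalize x.1 = n at h1
      revert n; decide
    obtain ⟨S, h2, h3, h4, h5⟩ := KCG.r9_of_reps h x hx x.1 1 hp (pow_one _).symm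
    refine ⟨S, List.mem_sublists.2 ?_, fun d _ => h4 d, fun q hq => h5 q ?_⟩
    · rw [← List.filter_eq_self.2 fun y hy => decide_eq_true (h3 y hy)]
      exact h2.filter _
    · revert q; decide

end Cfsg.Agent.KC
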