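import Cfsg.Agent.Lib.KC.Asm
import Cfsg.Agent.Lib.KCG.C

/-! Further conditions on the class data. -/

set_option autoImplicit false

open Cfsg Cfsg.Agent.Char Cfsg.Agent.Nine Finset
open scoped ComplexConjugate Classical

namespace Cfsg.Agent.KC
variable {G : Type*} [Group G] [Finite G] {xs : List G}

theorem nn_dvd_pow (x : G) (m : ℕ) : nn x ∣ nn (x ^ m) := by
  refine Subgroup.card_dvd_of_le fun g hg => ?_
  rw [mem_norm_iff] at hg ⊢
  obtain ⟨k, hk⟩ := Subgroup.mem_zpowers_iff.1 hg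
  rw [← conj_pow, ← hk, ← zpow_natCast (x ^ k), ← zpow_mul, mul_comm, zpow_mul, zpow_natCast]
  exact Subgroup.zpow_mem_zpowers _ _

theorem nn_dat (x : G) : (dat x).2.2 * (Nat.totient (dat x).1 / (dat x).2.1) = nn x := by
  simp only [dat]; rw [KCG.tot_div, mul_comm, ee_mul]

theorem Reps.pow (h : Reps xs) : ∀ x ∈ xs.map dat, ∀ d, d ∣ x.1 → 1 < d → ∃ y ∈ xs.map dat, y.1 = d ∧
    x.2.2 ∣ y.2.2 ∧ y.2.1 ∣ x.2.1 ∧ x.2.2 * (Nat.totient x.1 / x.2.1) ∣ y.2.2 * (Nat.totient y.1 / y.2.1) := by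
  intro x hx d hd h1
  obtain ⟨x, -, rfl⟩ := List.mem_map.1 hx
  have e : orderOf (x ^ (orderOf x / d)) = d := orderOf_pow_orderOf_div (orderOf_pos x).ne' hd
  refine ⟨_, h.mem_dat (KCG.ne_one_of_order e h1), e, cc_dvd_pow x _, KCG.ns_pow_dvd x _, ?_⟩
  rw [nn_dat, nn_dat]; exact nn_dvd_pow x _

theorem gr : ∀ x ∈ xs.map dat, ∀ p a, p.Prime → x.1 = p ^ a → p * x.1 ∣ Nat.card G →
    p * x.1 ∣ x.2.2 * (Nat.totient x.1 / x.2.1) := by
  intro x hx p a hp e hg
  obtain ⟨x, -, rfl⟩ := List.mem_map.1 hx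
  have := Fact.mk hp
  rw [nn_dat]
  rw [e, ← pow_succ'] at hg ⊢
  exact Sylow.prime_pow_dvd_card_normalizer hg ((Nat.card_zpowers x).trans e)

theorem Reps.conj_two (h : Reps xs) (h1 : (xs.map dat).Pairwise fun x y => ¬ (x.1 = 2 ∧ y.1 = 2)) {t u : G}
    (ht : orderOf t = 2) (hu : orderOf u = 2) : IsConj t u := by
  obtain ⟨x, hx, r⟩ := h.cover t (KCG.ne_one_of_order ht one_lt_two)
  obtain ⟨y, hy, s⟩ := h.cover u (KCG.ne_one_of_order hu one_lt_two)
  obtain rfl : x = y := by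
    by_contra e
    rw [List.pairwise_map] at h1
    have : Std.Symm fun a b : G => ¬ ((dat a).1 = 2 ∧ (dat b).1 = 2) := ⟨fun _ _ a b => a b.symm⟩
    exact h1.forall hx hy e ⟨r.orderOf_eq.trans ht, s.orderOf_eq.trans hu⟩
  obtain ⟨j, hj, c⟩ := r.symm.trans s
  rw [ht] at hj
  rwa [← pow_mod_orderOf, ht, Nat.odd_iff.1 (Nat.coprime_two_right.1 hj), pow_one] at c

theorem Reps.ea (h : Reps xs) (h1 : (xs.map dat).Pairwise fun x y => ¬ (x.1 = 2 ∧ y.1 = 2))
    (h4 : ∀ x ∈ xs.map dat, ¬ 4 ∣ x.1) {n m : ℕ} (hg : Nat.card G = 2 ^ (n + 1) * m) (hm : ¬ 2 ∣ m) :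
    2 ^ (n + 1) - 1 ∣ Nat.card G := by
  obtain ⟨P⟩ : Nonempty (Sylow 2 G) := inferInstance
  have hP : Nat.card P = 2 ^ (n + 1) := by
    rw [P.card_eq_multiplicity, hg, Nat.factorization_mul (pow_ne_zero _ two_ne_zero) (fun e => hm (by rw [e]; exact dvd_zero 2)),
      Finsupp.add_apply, Nat.factorization_eq_zero_of_not_dvd hm, Nat.prime_two.factorization_pow]
    simp
  have h2 : ∀ y ∈ (P : Subgroup G), y ≠ 1 → orderOf y = 2 := fun y hy y1 => by
    obtain ⟨k, -, hk⟩ := (Nat.dvd_prime_pow Nat.prime_two).1 (hP ▸ Subgroup.orderOf_dvd_natCard _ hy)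
    have h5 : ¬ 4 ∣ orderOf y := h4 _ (h.mem_dat y1)
    match k, hk with
    | 0, hk => exact absurd (orderOf_eq_one_iff.1 hk) y1
    | 1, hk => exact hk
    | k + 2, hk => exact absurd ⟨2 ^ k, by rw [hk]; ring⟩ h5
  have h3 : ∀ y ∈ (P : Subgroup G), y⁻¹ = y := fun y hy => by
    by_cases e : y = 1
    · rw [e, inv_one]
    · rw [inv_eq_iff_mul_eq_one, ← sq, ← h2 y hy e, pow_orderOf_eq_one]
  have : IsMulCommutative P := ⟨⟨fun a b => Subtype.ext (by
    rw [← h3 _ (a * b).2, Subgroup.coe_mul, mul_inv_rev, h3 _ a.2, h3 _ b.2, Subgroup.coe_mul])⟩⟩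
  obtain ⟨t, ht⟩ := exists_prime_orderOf_dvd_card' (G := P) 2 (hP ▸ dvd_pow_self 2 n.succ_ne_zero)
  rw [← Subgroup.orderOf_coe] at ht
  let _ : MulAction (Subgroup.normalizer (P : Set G)) G :=
    MulAction.compHom G (MulAut.conj.comp (Subgroup.normalizer (P : Set G)).subtype)
  have h5 : MulAction.orbit (Subgroup.normalizer (P : Set G)) (t : G) = (P : Set G) \ {1} := by
    ext y
    constructor
    · rintro ⟨g, rfl⟩
      refine ⟨(Subgroup.mem_normalizer_iff.1 g.2 t).1 t.2, fun e => ?_⟩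
      have e' : (g : G) * t * (g : G)⁻¹ = 1 := e
      exact KCG.ne_one_of_order ht one_lt_two (by simpa [mul_inv_eq_iff_eq_mul] using e')
    · rintro ⟨hy, y1⟩
      obtain ⟨g, rfl⟩ := isConj_iff.1 (h.conj_two h1 ht (h2 y hy y1))
      obtain ⟨k, hk, e⟩ := P.conj_eq_normalizer_conj_of_mem t g⁻¹ t.2 (by simpa using hy)
      rw [inv_inv] at e
      exact ⟨⟨k⁻¹, inv_mem hk⟩, by rw [e]; simp [MulAction.compHom_smul_def]⟩
  have h6 := MulAction.index_stabilizer (Subgroup.normalizer (P : Set G)) (t : G)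
  rw [h5, Set.ncard_diff_singleton_of_mem (by simp), ← Nat.card_coe_set_eq] at h6
  rw [← hP]
  exact (h6 ▸ Subgroup.index_dvd_card _ :).trans (Subgroup.card_subgroup_dvd_card _)

theorem sum_prod_three {w : ℂ} (hw : w ^ 2 + w + 1 = 0) (hc : conj w = w ^ 2) (s : Multiset ℂ)
    (h : ∀ ζ ∈ s, ζ ^ 3 = 1) : ∃ a b : ℕ, s.sum - conj s.sum = (a - b) * (w - w ^ 2) ∧ s.prod = w ^ (a + 2 * b) := by
  induction s using Multiset.induction_on with
  | empty => exact ⟨0, 0, by simp, by simp⟩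
  | cons z s ih =>
    obtain ⟨a, b, h1, h2⟩ := ih fun ζ hζ => h ζ (Multiset.mem_cons_of_mem hζ)
    have h3 : (z - 1) * ((z - w) * (z - w ^ 2)) = 0 := by
      linear_combination h z (Multiset.mem_cons_self z s) + (-z ^ 2 + z * w + 1 - w) * hw
    rw [Multiset.sum_cons, Multiset.prod_cons, map_add, h2]
    rcases mul_eq_zero.1 h3 with e | e
    · exact ⟨a, b, by rw [sub_eq_zero.1 e, map_one]; linear_combination h1, by rw [sub_eq_zero.1 e, one_mul]⟩
    rcases mul_eq_zero.1 e with e | e <;> rw [sub_eq_zero.1 e]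
    · exact ⟨a + 1, b, by rw [hc]; push_cast; linear_combination h1, by ring⟩
    · exact ⟨a, b + 1, by rw [map_pow, hc]; push_cast; linear_combination h1 + (w - w ^ 2) * hw, by ring⟩

theorem sq_three [IsSimpleGroup G] (hG : ¬ IsMulCommutative G) (χ : IrrCharacter G) {u : G} (hu : u ^ 3 = 1) :
    ∃ k : ℤ, (χ.1 u - conj (χ.1 u)) ^ 2 = -27 * k ^ 2 := by
  have hp := Complex.isPrimitiveRoot_exp 3 three_ne_zero
  generalize Complex.exp _ = w at hp
  have hw : w ^ 2 + w + 1 = 0 := by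
    have := hp.geom_sum_eq_zero (by norm_num)
    simp only [sum_range_succ, range_zero, sum_empty] at this
    linear_combination this
  have hc : conj w = w ^ 2 := by
    rw [← Complex.inv_eq_conj (hp.norm'_eq_one three_ne_zero)]
    exact inv_eq_of_mul_eq_one_right (by linear_combination hp.pow_eq_one)
  obtain ⟨n, ρ, -, e⟩ := χ.2
  let l : G →* ℂ := (LinearMap.det : _ →* ℂ).comp ρ
  have hl : l u = 1 := by
    by_contra hne
    have h1 := two_le_dg hG (χ := ⟨l, isIrr_monoidHom l⟩) fun e => hne (congrFun (congrArg Subtype.val e) u)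
    have h2 := apply_one (⟨l, isIrr_monoidHom l⟩ : IrrCharacter G)
    simp only [map_one] at h2
    have : dg (⟨l, isIrr_monoidHom l⟩ : IrrCharacter G) = 1 := by exact_mod_cast h2.symm
    omega
  obtain ⟨a, b, h1, h2⟩ := sum_prod_three hw hc (ρ u).charpoly.roots fun ζ hζ => by
    obtain ⟨v, hv⟩ := ((Module.End.hasEigenvalue_iff_isRoot_charpoly (ρ u) ζ).2
      (Polynomial.isRoot_of_mem_roots hζ)).exists_hasEigenvector
    have h1 := hv.pow_apply 3
    rw [← map_pow, hu, map_one, Module.End.one_apply] at h1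
    exact smul_left_injective ℂ hv.2 (h1.symm.trans (one_smul ℂ v).symm)
  have hsp : (ρ u).charpoly.Splits := IsAlgClosed.splits _
  rw [← Module.End.trace_eq_sum_roots_charpoly_of_splits hsp] at h1
  rw [← Module.End.det_eq_prod_roots_charpoly_of_splits hsp, show LinearMap.det (ρ u) = l u from rfl, hl] at h2
  obtain ⟨k, hk⟩ := (hp.pow_eq_one_iff_dvd _).1 h2.symm
  have hk' : (a : ℂ) + 2 * b = 3 * k := by exact_mod_cast hk
  refine ⟨k - b, ?_⟩
  rw [← e, Representation.character, h1, show (a : ℂ) - b = 3 * (k - b) by linear_combination hk']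
  push_cast
  linear_combination 9 * ((k : ℂ) - b) ^ 2 * (w ^ 2 - 3 * w + 3) * hw

theorem n3 [IsSimpleGroup G] (hG : ¬ IsMulCommutative G) {u : G} (hu : orderOf u = 3) (hs : ns u = 2) :
    27 ∣ cc u := by
  have := Fintype.ofFinite G
  have := Fintype.ofFinite (IrrCharacter G)
  have h1 : ¬ IsConj u u⁻¹ := fun c => by
    obtain ⟨H, h1, h2⟩ := KCG.exists_sub u
    have : H = ⊤ := eq_top_iff.2 fun v _ => (h2 v).2 (by
      have h3 : u ^ (v : ZMod (orderOf u)).val ≠ 1 := fun e => by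
        have h4 := ZMod.val_coe_unit_coprime v
        have h5 := orderOf_dvd_of_pow_eq_one e
        have := Nat.eq_one_of_dvd_coprimes h4 h5 dvd_rfl
        omega
      rcases mem_zpowers_three (hu ▸ pow_orderOf_eq_one u) (Subgroup.npow_mem_zpowers u _) with e | e | e
      exacts [absurd e h3, by rw [e], by rw [e]; exact c])
    rw [this, Subgroup.index_top] at h1
    omega
  choose k hk using fun χ : IrrCharacter G => sq_three hG χ (hu ▸ pow_orderOf_eq_one u)
  have a := second_orthogonality u u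
  have b := second_orthogonality u u⁻¹
  have c := second_orthogonality u⁻¹ u
  rw [if_pos (IsConj.refl u)] at a
  rw [if_neg h1] at b
  rw [if_neg fun e => h1 e.symm] at c
  simp only [char_inv (ch _), Complex.conj_conj] at b c
  have d : ∑ χ : IrrCharacter G, (χ.1 u - conj (χ.1 u)) ^ 2 = -2 * cc u := by
    rw [cc, ← a, ← add_zero (_ * _), ← add_zero (_ * _), mul_sum]
    nth_rw 1 [← b]
    rw [← c, ← sum_add_distrib, ← sum_add_distrib]
    exact sum_congr rfl fun _ _ => by ring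
  simp only [hk] at d
  rw [← mul_sum] at d
  have e : (27 : ℤ) * ∑ χ, k χ ^ 2 = 2 * cc u := by
    have : ((27 * ∑ χ, k χ ^ 2 : ℤ) : ℂ) = (2 * cc u : ℤ) := by push_cast; linear_combination -d
    exact_mod_cast this
  omega

theorem n3' [IsSimpleGroup G] (hG : ¬ IsMulCommutative G) : ∀ x ∈ xs.map dat, x.1 = 3 → x.2.1 = 2 → 27 ∣ x.2.2 := by
  intro x hx
  obtain ⟨x, -, rfl⟩ := List.mem_map.1 hx
  exact n3 hG

end Cfsg.Agent.KC
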