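import Cfsg.Agent.Lib.KC.Srch

/-! Specifications of the basic routines of the search. -/

set_option autoImplicit false

namespace Cfsg.Agent.KC

theorem IF_eq (b x y : Bool) : IF(b, x, y) = if b then x else y := by cases b <;> rfl

theorem IFN_eq (b : Bool) (x y : ℕ) : IFN(b, x, y) = if b then x else y := by cases b <;> rfl

theorem beq_eq' (a b : ℕ) : Nat.beq a b = decide (a = b) := by
  rw [Bool.eq_iff_iff, Nat.beq_eq]; simp

theorem ble_eq' (a b : ℕ) : Nat.ble a b = decide (a ≤ b) := by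
  rw [Bool.eq_iff_iff, Nat.ble_eq]; simp

theorem TB_eq (m n : ℕ) : TB(m, n) = m.testBit n := by
  unfold Nat.testBit
  show Nat.beq ((m >>> n) &&& 1) 1 = _
  rw [Nat.and_comm, Nat.one_and_eq_mod_two]
  rcases Nat.mod_two_eq_zero_or_one (m >>> n) with h | h <;> rw [h] <;> rfl

theorem tb_st (m n k : ℕ) : (ST(m, n)).testBit k = (m.testBit k || decide (n = k)) := by
  show (m ||| (1 <<< n)).testBit k = _
  rw [Nat.testBit_or, Nat.one_shiftLeft, Nat.testBit_two_pow]

theorem tb_lor (m n k : ℕ) : (Nat.lor m n).testBit k = (m.testBit k || n.testBit k) := Nat.testBit_or _ _ _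

theorem tb_ant (a b k : ℕ) : (ANT(a, b)).testBit k = (a.testBit k && !b.testBit k) := by
  show (a ^^^ (a &&& b)).testBit k = _
  rw [Nat.testBit_xor, Nat.testBit_and]
  cases a.testBit k <;> cases b.testBit k <;> rfl

theorem DV_eq (a b : ℕ) : DV(a, b) = decide (a ∣ b) := by
  rw [beq_eq', decide_eq_decide, Nat.dvd_iff_mod_eq_zero]; rfl

theorem MX_eq (a b : ℕ) : MX(a, b) = max a b := by show a + (b - a) = _; omega

theorem MN_eq (a b : ℕ) : MN(a, b) = min a b := by show a - (a - b) = _; omega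

theorem LCM_eq (a b : ℕ) : LCM(a, b) = Nat.lcm a b := by
  show a / a.gcd b * b = a * b / a.gcd b
  rw [Nat.div_mul_right_comm (Nat.gcd_dvd_left a b)]

theorem allL_iff {α : Type} {l : List α} {f : α → Bool} : allL l f = true ↔ ∀ a ∈ l, f a = true := by
  induction l with
  | nil => simp [allL]
  | cons a l ih =>
    have : allL (a :: l) f = (f a && allL l f) := by simp only [allL]; cases f a <;> rfl
    simp [this, ih]

theorem anyL_iff {α : Type} {l : List α} {f : α → Bool} : anyL l f = true ↔ ∃ a ∈ l, f a = true := by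
  induction l with
  | nil => simp [anyL]
  | cons a l ih =>
    have : anyL (a :: l) f = (f a || anyL l f) := by simp only [anyL]; cases f a <;> rfl
    simp [this, ih]

theorem tb_mk {l : List ℕ} {k : ℕ} : (mk l).testBit k = true ↔ k ∈ l := by
  induction l with
  | nil => exact ⟨fun h => absurd ((Nat.zero_testBit k).symm.trans h) (by decide), fun h => absurd h List.not_mem_nil⟩
  | cons a l ih =>
    have : mk (a :: l) = ST(mk l, a) := rfl
    rw [this, tb_st, Bool.or_eq_true, ih, decide_eq_true_eq, List.mem_cons]; tauto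

theorem clr_spec (x n : ℕ) : ∃ V : Finset ℕ, (∀ v ∈ V, x.testBit v = true ∧ (clr x n).testBit v = false) ∧
    (∀ v, (clr x n).testBit v = true → x.testBit v = true) ∧ (clr x n ≠ 0 → V.card = n) := by
  induction n with
  | zero => exact ⟨∅, by simp, fun v h => h, by simp⟩
  | succ n ih =>
    obtain ⟨V, h1, h2, h3⟩ := ih
    have e : clr x (n + 1) = clr x n &&& (clr x n - 1) := rfl
    by_cases h0 : clr x n = 0
    · exact ⟨∅, by simp, by simp [e, h0], by simp [e, h0]⟩
    have h4 : clr x (n + 1) ≠ clr x n := by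
      have : clr x n &&& (clr x n - 1) ≤ clr x n - 1 := Nat.and_le_right
      omega
    obtain ⟨i, hi⟩ : ∃ i, (clr x (n + 1)).testBit i ≠ (clr x n).testBit i := by
      by_contra h; push Not at h; exact h4 (Nat.eq_of_testBit_eq h)
    have h5 : ∀ v, (clr x (n + 1)).testBit v = true → (clr x n).testBit v = true := by
      intro v hv; rw [e, Nat.testBit_and] at hv; simp at hv; exact hv.1
    have h6 : (clr x n).testBit i = true ∧ (clr x (n + 1)).testBit i = false := by
      have := h5 i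
      revert this hi
      cases (clr x n).testBit i <;> cases (clr x (n + 1)).testBit i <;> simp
    refine ⟨insert i V, ?_, fun v hv => h2 v (h5 v hv), fun _ => ?_⟩
    · intro v hv
      rcases Finset.mem_insert.1 hv with rfl | hv
      · exact ⟨h2 _ h6.1, h6.2⟩
      · refine ⟨(h1 v hv).1, ?_⟩
        have := h5 v
        rw [(h1 v hv).2] at this
        simpa using this
    · rw [Finset.card_insert_of_notMem fun e => by have := (h1 i e).2; rw [h6.1] at this; simp at this, h3 h0]

theorem clr_ne {x n : ℕ} (h : clr x n ≠ 0) : ∃ V : Finset ℕ, V.card = n + 1 ∧ ∀ v ∈ V, x.testBit v = true := by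
  obtain ⟨V, h1, h2, h3⟩ := clr_spec x n
  obtain ⟨i, hi⟩ := Nat.exists_testBit_of_ne_zero h
  refine ⟨insert i V, ?_, ?_⟩
  · rw [Finset.card_insert_of_notMem fun e => by have := (h1 i e).2; rw [hi] at this; simp at this, h3 h]
  · intro v hv
    rcases Finset.mem_insert.1 hv with rfl | hv
    · exact h2 _ hi
    · exact (h1 v hv).1

theorem flt_spec {o c : ℕ} {l acc : List (ℕ × ℕ)} {k : List (ℕ × ℕ) → Bool} (h : flt o c l k acc = true)
    {Q : ℕ × ℕ → Prop} (h1 : ∀ a ∈ acc, Q a) (h2 : ∀ a ∈ l, ¬ (a.1 = o ∧ a.2 ∣ c) → Q a) :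
    ∃ r, k r = true ∧ ∀ a ∈ r, Q a := by
  induction l generalizing acc with
  | nil => exact ⟨acc, h, h1⟩
  | cons a l ih =>
    have e : flt o c (a :: l) k acc = IF(Nat.beq a.1 o, IF(DV(a.2, c), flt o c l k acc, flt o c l k (a :: acc)),
      flt o c l k (a :: acc)) := rfl
    have h3 := fun b hb => h2 b (List.mem_cons_of_mem _ hb)
    have h4 : ¬ (a.1 = o ∧ a.2 ∣ c) → ∀ b ∈ a :: acc, Q b := fun e b hb => by
      rcases List.mem_cons.1 hb with rfl | hb
      · exact h2 _ List.mem_cons_self e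
      · exact h1 b hb
    rw [e, DV_eq, beq_eq', IF_eq, IF_eq] at h
    simp only [decide_eq_true_eq] at h
    split_ifs at h with e1 e2
    · exact ih h h1 h3
    · exact ih h (h4 fun e => e2 e.2) h3
    · exact ih h (h4 fun e => e1 e.1) h3

theorem addD_spec {l : List ℕ} {c : ℕ} {acc : List (ℕ × ℕ)} {k : List (ℕ × ℕ) → Bool}
    (h : addD l c k acc = true) {Q : ℕ × ℕ → Prop} (h1 : ∀ a ∈ acc, Q a)
    (h2 : ∀ d ∈ l, Q (d, c)) : ∃ r, k r = true ∧ ∀ a ∈ r, Q a := by
  induction l generalizing acc with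
  | nil => exact ⟨acc, h, h1⟩
  | cons a l ih =>
    refine ih (acc := (a, c) :: acc) h ?_ fun d hd => h2 d (List.mem_cons_of_mem _ hd)
    intro b hb
    rcases List.mem_cons.1 hb with rfl | hb
    · exact h2 a List.mem_cons_self
    · exact h1 b hb

theorem addO_spec {l : List ℕ} {m : ℕ} {acc : List (ℕ × ℕ)} {k : List (ℕ × ℕ) → Bool}
    (h : addO l m k acc = true) {Q : ℕ × ℕ → Prop} (h1 : ∀ a ∈ acc, Q a)
    (h2 : ∀ d ∈ l, m.testBit d = false → Q (d, d)) : ∃ r, k r = true ∧ ∀ a ∈ r, Q a := by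
  induction l generalizing acc with
  | nil => exact ⟨acc, h, h1⟩
  | cons a l ih =>
    have e : addO (a :: l) m k acc = IF(TB(m, a), addO l m k acc, addO l m k ((a, a) :: acc)) := rfl
    rw [e, TB_eq, IF_eq] at h
    split_ifs at h with h3
    · exact ih h h1 fun d hd => h2 d (List.mem_cons_of_mem _ hd)
    · refine ih h ?_ fun d hd => h2 d (List.mem_cons_of_mem _ hd)
      intro b hb
      rcases List.mem_cons.1 hb with rfl | hb
      · exact h2 a List.mem_cons_self (by simpa using h3)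
      · exact h1 b hb

theorem smZ_spec {lo hi p : ℕ} {f : ℕ → Bool} {n v : ℕ} (hp : 0 < p) (h : smZ lo hi p f n v = true) {j : ℕ}
    (h1 : lo ≤ v * p ^ j) (h2 : v * p ^ j ≤ hi) : f (v * p ^ j) = true := by
  induction n generalizing v j with
  | zero => exact absurd h (by simp [smZ])
  | succ n ih =>
    have e : smZ lo hi p f (n + 1) v = IF(Nat.ble lo v, IF(Nat.ble v hi, IF(f v, smZ lo hi p f n (v * p), false),
      true), smZ lo hi p f n (v * p)) := rfl
    have h3 : v ≤ hi := (Nat.le_mul_of_pos_right v (by positivity)).trans h2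
    rw [e, ble_eq', ble_eq', IF_eq, IF_eq, IF_eq] at h
    simp only [decide_eq_true_eq, h3, if_true] at h
    rcases j with _ | j
    · simp only [pow_zero, mul_one] at h1 ⊢
      rw [if_pos h1] at h
      split_ifs at h with h4
      exact h4
    · have h5 : smZ lo hi p f n (v * p) = true := by split_ifs at h <;> exact h
      have e2 : v * p ^ (j + 1) = v * p * p ^ j := by ring
      rw [e2] at h1 h2 ⊢
      exact ih h5 h1 h2

theorem smooth_spec {hi p0 : ℕ} {g : ℕ → Bool} {ps : List ℕ} {v N : ℕ} (h : smooth hi g N ps v = true)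
    {m : ℕ} (hp0 : p0.Prime) (hm : 0 < m) (hp : ∀ p, p.Prime → p ∣ m → p = p0 ∨ p ∈ ps) (h2 : v * m ≤ hi) :
    ∃ w j, g w = true ∧ v * m = w * p0 ^ j := by
  induction ps generalizing v m with
  | nil =>
    obtain ⟨j, rfl⟩ : ∃ j, m = p0 ^ j := ⟨_, Nat.eq_prime_pow_of_unique_prime_dvd hm.ne'
      fun {d} a b => by simpa using hp d a b⟩
    exact ⟨v, j, h, rfl⟩
  | cons p ps ih =>
    have key : ∀ (n v : ℕ), Nat.rec (motive := fun _ => ℕ → Bool) (fun _ => false)
        (fun _ ih2 v => IF(Nat.ble v hi, IF(smooth hi g N ps v, ih2 (Nat.mul v p), false), true)) n v = true →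
          ∀ m, 0 < m → (∀ q, q.Prime → q ∣ m → q = p0 ∨ q ∈ p :: ps) → v * m ≤ hi →
          ∃ w j, g w = true ∧ v * m = w * p0 ^ j := by
      intro n
      induction n with
      | zero => intro v h; simp at h
      | succ n ih2 =>
        intro v h m hm hp h2
        have h3 : v ≤ hi := (Nat.le_mul_of_pos_right v hm).trans h2
        have h4 : Nat.ble v hi = true := by rw [ble_eq']; simpa using h3
        dsimp only at h
        rw [h4] at h
        rcases h5 : smooth hi g N ps v
        · rw [h5] at h; simp at h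
        rw [h5] at h
        by_cases h6 : p ∣ m
        · obtain ⟨m', rfl⟩ := h6
          have := ih2 (v * p) h m' (Nat.pos_of_mul_pos_left hm) (fun q a b => hp q a (b.mul_left p))
            (by rwa [mul_assoc])
          rwa [mul_assoc] at this
        · refine ih h5 hm (fun q a b => ?_) h2
          rcases hp q a b with e | e
          · exact Or.inl e
          rcases List.mem_cons.1 e with rfl | e
          · exact absurd b h6
          · exact Or.inr e
    exact key N v h m hm hp h2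

theorem addF_spec {PS : List ℕ} {L B : ℕ} {acc : List (ℕ × ℕ)} {k : List (ℕ × ℕ) → Bool}
    (h : addF PS L B k acc = true) {Q : ℕ × ℕ → Prop} (h1 : ∀ a ∈ acc, Q a)
    (h2 : ∀ p ∈ PS, ¬ L.gcd (p ^ 64) ∣ B → Q (p, L.gcd (p ^ 64))) :
    ∃ r, k r = true ∧ ∀ a ∈ r, Q a := by
  induction PS generalizing acc with
  | nil => exact ⟨acc, h, h1⟩
  | cons p l ih =>
    have e : addF (p :: l) L B k acc = IF(DV(L.gcd (p ^ 64), B), addF l L B k acc,
        addF l L B k ((p, L.gcd (p ^ 64)) :: acc)) := rfl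
    rw [e, DV_eq, IF_eq] at h
    simp only [decide_eq_true_eq] at h
    split_ifs at h with h3
    · exact ih h h1 fun d hd => h2 d (List.mem_cons_of_mem _ hd)
    · refine ih h ?_ fun d hd => h2 d (List.mem_cons_of_mem _ hd)
      intro b hb
      rcases List.mem_cons.1 hb with rfl | hb
      · exact h2 p List.mem_cons_self h3
      · exact h1 b hb

theorem addT_spec {L m : ℕ} {acc : List (ℕ × ℕ)} {k : List (ℕ × ℕ) → Bool} {n j : ℕ} (hj : 1 ≤ j)
    (h : addT L m k n (2 ^ j) acc = true) {Q : ℕ × ℕ → Prop} (h1 : ∀ a ∈ acc, Q a)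
    (h2 : ∀ j, 1 ≤ j → 2 ^ (j + 1) ∣ L → m.testBit (2 ^ j) = false → Q (2 ^ j, 2 ^ j)) :
    ∃ r, k r = true ∧ ∀ a ∈ r, Q a := by
  induction n generalizing j acc with
  | zero => exact ⟨acc, h, h1⟩
  | succ n ih =>
    have e : addT L m k (n + 1) (2 ^ j) acc = IF(DV(2 ^ (j + 1), L), IF(TB(m, 2 ^ j), addT L m k n (2 ^ (j + 1)) acc,
      addT L m k n (2 ^ (j + 1)) ((2 ^ j, 2 ^ j) :: acc)), k acc) := rfl
    rw [e, DV_eq, TB_eq, IF_eq, IF_eq] at h
    simp only [decide_eq_true_eq] at h
    split_ifs at h with h3 h4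
    · exact ih (by omega) h h1
    · refine ih (by omega) h ?_
      intro b hb
      rcases List.mem_cons.1 hb with rfl | hb
      · exact h2 j hj h3 (by simpa using h4)
      · exact h1 b hb
    · exact ⟨acc, h, h1⟩

theorem lcq_dvd {n c : ℕ} {l : List (ℕ × ℕ)} (hl : ∀ a ∈ l, a.1 = n → a.2 ∣ c) {q : ℕ} (h : q ∣ c) :
    lcq n l q ∣ c := by
  induction l generalizing q with
  | nil => exact h
  | cons a l ih =>
    have e : lcq n (a :: l) q = IFN(Nat.beq a.1 n, lcq n l (LCM(q, a.2)), lcq n l q) := rfl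
    have h2 := fun b hb => hl b (List.mem_cons_of_mem _ hb)
    rw [e, beq_eq', LCM_eq, IFN_eq]
    simp only [decide_eq_true_eq]
    split_ifs with h1
    · exact ih h2 (Nat.lcm_dvd h (hl a List.mem_cons_self h1))
    · exact ih h2 h

theorem flt2_spec {o m : ℕ} {l u v : List ℕ} {k : List ℕ → List ℕ → Bool} (h : flt2 o m l k u v = true)
    (hu : ∀ p ∈ u, p ∈ l ∧ ¬ p ∣ o) : ∃ u' v', k u' v' = true ∧ (∀ p ∈ u', (p ∈ u ∨ p ∈ l) ∧ ¬ p ∣ o) ∧
      ∀ p, p ∈ v ∨ (p ∈ l ∧ m.testBit (o * p) = true ∧ ¬ p ∣ o) → p ∈ v' := by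
  replace hu : ∀ p ∈ u, ¬ p ∣ o := fun p hp => (hu p hp).2
  induction l generalizing u v with
  | nil => exact ⟨u, v, h, fun p hp => ⟨Or.inl hp, hu p hp⟩, by simp⟩
  | cons a l ih =>
    have e : flt2 o m (a :: l) k u v = IF(TB(m, o * a), IF(DV(a, o), flt2 o m l k u v,
      flt2 o m l k (a :: u) (a :: v)), flt2 o m l k u v) := rfl
    rw [e, DV_eq, TB_eq, IF_eq, IF_eq] at h
    simp only [decide_eq_true_eq] at h
    split_ifs at h with h1 h2
    · obtain ⟨u', v', e1, e2, e3⟩ := ih h hu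
      refine ⟨u', v', e1, ?_, ?_⟩ <;> simp only [List.mem_cons] <;> grind
    · obtain ⟨u', v', e1, e2, e3⟩ := ih h (by simp only [List.mem_cons]; grind)
      refine ⟨u', v', e1, ?_, ?_⟩ <;> simp only [List.mem_cons] at * <;> grind
    · obtain ⟨u', v', e1, e2, e3⟩ := ih h hu
      refine ⟨u', v', e1, ?_, ?_⟩ <;> simp only [List.mem_cons] <;> grind

theorem addP_spec {l PS : List ℕ} {m : ℕ} {k : List ℕ → ℕ → Bool} (h : addP l k PS m = true)
    (h1 : ∀ p, m.testBit p = true → p ∈ PS) : ∃ PS' m', k PS' m' = true ∧ (∀ p, m'.testBit p = true → p ∈ PS') ∧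
      ∀ p, p ∈ PS' ↔ p ∈ PS ∨ p ∈ l := by
  induction l generalizing PS m with
  | nil => exact ⟨PS, m, h, h1, by simp⟩
  | cons a l ih =>
    have e : addP (a :: l) k PS m = IF(TB(m, a), addP l k PS m, addP l k (a :: PS) (ST(m, a))) := rfl
    rw [e, TB_eq, IF_eq] at h
    split_ifs at h with h3
    · obtain ⟨PS', m', e1, e2, e3⟩ := ih h h1
      refine ⟨PS', m', e1, e2, fun p => ?_⟩
      have := h1 a h3
      rw [e3]; simp only [List.mem_cons]; grind
    · obtain ⟨PS', m', e1, e2, e3⟩ := ih h (by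
        intro p hp
        rw [tb_st] at hp
        simp only [Bool.or_eq_true, decide_eq_true_eq] at hp
        rcases hp with hp | rfl
        · exact List.mem_cons_of_mem _ (h1 p hp)
        · exact List.mem_cons_self)
      refine ⟨PS', m', e1, e2, fun p => ?_⟩
      rw [e3]; simp only [List.mem_cons]; grind

theorem allT_spec {l : List TE} {hi : ℕ} {f : TE → Bool} (h : allT l hi f = true)
    (hs : l.Pairwise fun a b => a.o ≤ b.o) {t : TE} (ht : t ∈ l) (h1 : t.o ≤ hi) : f t = true := by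
  induction l with
  | nil => simp at ht
  | cons a l ih =>
    have h2 : a.o ≤ hi := by
      rcases List.mem_cons.1 ht with rfl | e
      · exact h1
      · exact ((List.pairwise_cons.1 hs).1 t e).trans h1
    have e : allT (a :: l) hi f = IF(Nat.ble a.o hi, IF(f a, allT l hi f, false), true) := rfl
    rw [e, ble_eq', IF_eq, IF_eq] at h
    simp only [decide_eq_true_eq, h2, if_true] at h
    split_ifs at h with h3
    rcases List.mem_cons.1 ht with rfl | e
    · exact h3
    · exact ih h (List.pairwise_cons.1 hs).2 e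

/-- total number of classes -/
def sumS (R : List En) : ℕ := (R.map fun x => x.2.1).sum

/-- total mass -/
def mass (R : List En) : ℚ := (R.map fun x => (x.2.1 : ℚ) / x.2.2).sum

/-- an obligation is met in `R` -/
def Ob (R : List En) (a : ℕ × ℕ) : Prop := ∃ y ∈ R, y.1 = a.1 ∧ a.2 ∣ y.2.2

/-- merged obligations -/
def MG (R : List En) (z c n u m w : ℕ) : Prop :=
  ∃ mg : List (ℕ × ℕ), (mg.map Prod.fst).Nodup ∧ mg.length = n ∧
    (∀ a ∈ mg, m.testBit a.1 = true ∧ a.1 ≤ w ∧ Ob R a) ∧ (∀ v, m.testBit v = true → ∃ y ∈ R, y.1 = v) ∧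
    (z : ℚ) * (mg.map fun a => (1 : ℚ) / (max a.2 c : ℕ)).sum ≤ u

theorem zz_div (z x : ℕ) (hx : 0 < x) : (z : ℚ) * (1 / x) ≤ (z / x + 1 : ℕ) := by
  have h1 : (0 : ℚ) < x := by exact_mod_cast hx
  rw [mul_one_div, div_le_iff₀ h1]
  have := Nat.lt_div_mul_add (a := z) hx
  have h2 : z ≤ (z / x + 1) * x := by nlinarith
  exact_mod_cast h2

theorem mrg_spec {R : List En} {z c left : ℕ} (hc : 0 < c) {l : List (ℕ × ℕ)} {k : ℕ → ℕ → ℕ → ℕ → Bool}
    {n u m w : ℕ} (hle : ∀ n u m w, MG R z c n u m w → n ≤ left)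
    (h : mrg z c left l k n u m w = true) (hl : ∀ a ∈ l, Ob R a) (h1 : MG R z c n u m w) :
    ∃ n' u' m' w', k n' u' m' w' = true ∧ MG R z c n' u' m' w' := by
  induction l generalizing n u m w with
  | nil => exact ⟨n, u, m, w, h, h1⟩
  | cons a l ih =>
    have e : mrg z c left (a :: l) k n u m w = IF(TB(m, a.1), mrg z c left l k n u m w, IF(Nat.ble left n, true,
        mrg z c left l k (n + 1) (u + (z / (MX(a.2, c)) + 1)) (ST(m, a.1)) (MX(w, a.1)))) := rfl
    rw [e, TB_eq, ble_eq', MX_eq, MX_eq, IF_eq, IF_eq] at h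
    have h2 := fun b hb => hl b (List.mem_cons_of_mem _ hb)
    by_cases h3 : m.testBit a.1 = true
    · rw [if_pos h3] at h; exact ih h h2 h1
    rw [if_neg h3] at h
    have h4 : MG R z c (n + 1) (u + (z / (max a.2 c) + 1)) (ST(m, a.1)) (max w a.1) := by
      obtain ⟨mg, e1, e2, e3, e5, e4⟩ := h1
      refine ⟨a :: mg, ?_, by simp [e2], ?_, ?_, ?_⟩
      · rw [List.map_cons, List.nodup_cons]
        refine ⟨fun e => ?_, e1⟩
        obtain ⟨b, hb, e⟩ := List.mem_map.1 e
        exact h3 (by have := (e3 b hb).1; rwa [e] at this)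
      · intro b hb
        rcases List.mem_cons.1 hb with rfl | hb
        · exact ⟨by rw [tb_st]; simp, le_max_right _ _, hl _ List.mem_cons_self⟩
        · exact ⟨by rw [tb_st]; simp [(e3 b hb).1], (e3 b hb).2.1.trans (le_max_left _ _), (e3 b hb).2.2⟩
      · intro v hv
        rw [tb_st] at hv
        simp only [Bool.or_eq_true, decide_eq_true_eq] at hv
        rcases hv with hv | rfl
        · exact e5 v hv
        · obtain ⟨y, hy, e, -⟩ := hl a List.mem_cons_self
          exact ⟨y, hy, e⟩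
      · rw [List.map_cons, List.sum_cons, mul_add]
        have := zz_div z (max a.2 c) (lt_max_of_lt_right hc)
        rw [Nat.cast_add u]
        linarith
    have h5 := hle _ _ _ _ h4
    rw [if_neg (by simp; omega)] at h
    exact ih h h2 h4

theorem mass_le {c : ℕ} (hc : 0 < c) (mg : List (ℕ × ℕ)) : ∀ R : List En, (∀ y ∈ R, 1 ≤ y.2.1 ∧ c ≤ y.2.2) →
    (mg.map Prod.fst).Nodup → (∀ a ∈ mg, Ob R a) → mg.length ≤ sumS R ∧
      mass R ≤ (mg.map fun a => (1 : ℚ) / (max a.2 c : ℕ)).sum + ((sumS R : ℚ) - mg.length) * (1 / c) := by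
  have hc' : (0 : ℚ) < c := by exact_mod_cast hc
  induction mg with
  | nil =>
    intro R hR _ _
    refine ⟨Nat.zero_le _, ?_⟩
    induction R with
    | nil => simp [mass, sumS]
    | cons y R ih =>
      have h1 := ih (fun z hz => hR z (List.mem_cons_of_mem _ hz)) (by simp)
      have h2 := (hR y List.mem_cons_self).2
      have h3 : (y.2.1 : ℚ) / y.2.2 ≤ y.2.1 * (1 / c) := by
        rw [mul_one_div]
        exact div_le_div_of_nonneg_left (Nat.cast_nonneg _) hc' (by exact_mod_cast h2)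
      simp only [mass, sumS, List.map_cons, List.sum_cons, List.map_nil, List.sum_nil, List.length_nil] at h1 ⊢
      push_cast at h1 ⊢
      linarith
  | cons a mg ih =>
    intro R hR h1 h2
    obtain ⟨y, hy, e1, e2⟩ := h2 a List.mem_cons_self
    obtain ⟨R1, R2, rfl⟩ := List.append_of_mem hy
    rw [List.map_cons, List.nodup_cons] at h1
    obtain ⟨i1, i2⟩ := ih (R1 ++ R2) (fun z hz => hR z (by simp at hz ⊢; tauto)) h1.2 (by
      intro b hb
      obtain ⟨z, hz, e3, e4⟩ := h2 b (List.mem_cons_of_mem _ hb)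
      refine ⟨z, ?_, e3, e4⟩
      have : z ≠ y := by
        rintro rfl
        exact h1.1 (List.mem_map.2 ⟨b, hb, by rw [← e3, e1]⟩)
      simp at hz ⊢; tauto)
    obtain ⟨h3, h4⟩ := hR y hy
    have h5 : max a.2 c ≤ y.2.2 := max_le (Nat.le_of_dvd (by omega) e2) h4
    have h6 : (0 : ℚ) < (max a.2 c : ℕ) := by exact_mod_cast lt_max_of_lt_right hc
    have h7 : (1 : ℚ) / y.2.2 ≤ 1 / (max a.2 c : ℕ) := one_div_le_one_div_of_le h6 (by exact_mod_cast h5)
    have h8 : (1 : ℚ) / y.2.2 ≤ 1 / c := one_div_le_one_div_of_le hc' (by exact_mod_cast h4)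
    have h9 : (1 : ℚ) ≤ y.2.1 := by exact_mod_cast h3
    have h10 : (y.2.1 : ℚ) / y.2.2 = 1 / y.2.2 + (y.2.1 - 1) * (1 / y.2.2) := by ring
    have h11 : ((y.2.1 : ℚ) - 1) * (1 / y.2.2) ≤ (y.2.1 - 1) * (1 / c) := mul_le_mul_of_nonneg_left h8 (by linarith)
    simp only [mass, sumS, List.map_append, List.sum_append, List.map_cons, List.sum_cons, List.length_cons] at i1 i2 ⊢
    refine ⟨by omega, ?_⟩
    push_cast at i2 h7 ⊢
    linarith

theorem card_le_sumS {R : List En} (hR : ∀ y ∈ R, 1 ≤ y.2.1) {V : Finset ℕ} (h : ∀ v ∈ V, ∃ y ∈ R, y.1 = v) :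
    V.card ≤ sumS R := by
  have h1 : V ⊆ (R.map Prod.fst).toFinset := fun v hv => by
    obtain ⟨y, hy, e⟩ := h v hv
    exact List.mem_toFinset.2 (List.mem_map.2 ⟨y, hy, e⟩)
  refine (Finset.card_le_card h1).trans ((List.toFinset_card_le _).trans ?_)
  rw [List.length_map]
  clear h1 h
  induction R with
  | nil => simp
  | cons y R ih =>
    have := ih fun z hz => hR z (List.mem_cons_of_mem _ hz)
    have := hR y List.mem_cons_self
    simp only [sumS, List.map_cons, List.sum_cons, List.length_cons] at *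
    omega

end Cfsg.Agent.KC
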