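import Cfsg.Agent.Lib.KC.Snd1

/-! Soundness of the search. -/

set_option autoImplicit false

namespace Cfsg.Agent.KC

/-- the order on data -/
def le' (c o s : ℕ) (y : En) : Prop := c < y.2.2 ∨ (c = y.2.2 ∧ (y.1 < o ∨ (y.1 = o ∧ s ≤ y.2.1)))

/-- arithmetical conditions on class data -/
structure Ax (M g : ℕ) (L : List En) : Prop where
  sum : sumS L = M
  gpos : 0 < g
  mss : 1 = mass L + 1 / (g : ℚ)
  bas : ∀ x ∈ L, 2 ≤ x.1 ∧ 1 ≤ x.2.1 ∧ 3 ≤ x.2.2 ∧ x.1 ∣ x.2.2 ∧ x.2.1 ∣ Nat.totient x.1 ∧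
    x.2.2 * (Nat.totient x.1 / x.2.1) ∣ g ∧ 6 * x.2.2 ≤ g
  dv : ∀ x ∈ L, ∀ d, 1 < d → d ∣ x.1 → ∃ y ∈ L, y.1 = d ∧ x.2.2 ∣ y.2.2
  pr : ∀ x ∈ L, ∀ p, p.Prime → p ∣ x.2.2 → ¬ p ∣ x.1 → ∃ y ∈ L, y.1 = x.1 * p ∧ y.2.2 ∣ x.2.2
  aut : ∀ x ∈ L, ∀ p a, p.Prime → p ≠ 2 → x.1 = p ^ a → ∀ d, 1 < d → d ∣ Nat.totient x.1 / x.2.1 → ∃ y ∈ L, y.1 = d
  cap : ∀ x ∈ L, ∀ p a, p.Prime → x.1 = p ^ a → ¬ p * p ∣ x.2.2 →
    ¬ p * p ∣ g ∧ p ≠ 2 ∧ Nat.totient x.1 / x.2.1 ≠ 1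
  uniq : L.Pairwise fun x y => x.1.Prime → y.1 = x.1 → x.1 * x.1 ∣ g
  syl : ∀ p, p.Prime → p ∣ g → ∃ y ∈ L, y.1 = p ∧ ¬ p ∣ g / y.2.2
  t2 : ∀ x ∈ L, ∀ a, x.1 = 2 ^ a → ¬ 8 ∣ x.2.2 → 8 ∣ g → ∀ j, 1 ≤ j → 2 ^ (j + 1) ∣ g → ∃ y ∈ L, y.1 = 2 ^ j
  srt : L.Pairwise fun x y => le' x.2.2 x.1 x.2.1 y

/-- correctness of a table entry -/
structure TOK (M : ℕ) (t : TE) : Prop where
  p0 : t.p0.Prime ∧ t.p0 ∣ t.o
  ps : ∀ p ∈ t.ps, p.Prime ∧ p ∣ t.o
  all : ∀ p, p.Prime → p ∣ t.o → p = t.p0 ∨ p ∈ t.ps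
  pp : t.pp ≠ 0 → t.pp.Prime ∧ ∃ a, t.o = t.pp ^ a
  dv : ∀ d ∈ t.dv, 1 < d ∧ d < t.o ∧ d ∣ t.o
  dvM : ∀ k, t.dvM.testBit k = true → k ∈ t.dv
  qM : ∀ p d, p.Prime → ¬ p ∣ d → 1 < d → t.o = d * p → t.qM.testBit d = true
  srt : t.ss.Pairwise fun r r' => r.1 ≤ r'.1
  ss : ∀ s, 1 ≤ s → s ≤ M → s ∣ Nat.totient t.o → ∃ r ∈ t.ss, r.1 = s
  rq : ∀ r ∈ t.ss, r.2.1 = Nat.totient t.o / r.1 ∧ (∀ d ∈ r.2.2.1, 1 < d ∧ d ∣ r.2.1 ∧ t.pp ≠ 0 ∧ t.pp ≠ 2) ∧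
    ∀ k, r.2.2.2.testBit k = true → k ∈ r.2.2.1

def TabOK (M : ℕ) (tabs : ℕ → List TE) (OL : List ℕ) : Prop :=
  ∀ j ≤ M, ((tabs j).Pairwise fun a b => a.o ≤ b.o) ∧ (∀ t ∈ tabs j, TOK M t) ∧
    ∀ o ∈ OL, (∃ t ∈ tabs j, t.o = o) ∨ ∃ dv : List ℕ, dv.Nodup ∧ j ≤ dv.length ∧ ∀ d ∈ dv, 1 < d ∧ d < o ∧ d ∣ o

structure Inv (M : ℕ) (OL : List ℕ) (g : ℕ) (σ : St) (R : List En) : Prop where
  ax : Ax M g (σ.P.reverse ++ R)
  ol : ∀ y ∈ R, y.1 ∈ OL
  left : σ.left = sumS R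
  leM : σ.left ≤ M
  bpos : 0 < σ.b
  mss : (σ.a : ℚ) / σ.b = mass R + 1 / g
  Ld : σ.L ∣ g
  Lc : ∀ y ∈ σ.P, y.2.2 ∣ σ.L
  prM : ∀ v, σ.prM.testBit v = true ↔ ∃ y ∈ σ.P, y.1 = v
  cM : ∀ y ∈ σ.P, ∀ p d, p.Prime → ¬ p ∣ d → 1 < d → y.1 = d * p → σ.cM.testBit d = true
  PS : ∀ p ∈ σ.PS, p.Prime ∧ p ∣ g
  PS2 : ∀ y ∈ σ.P, ∀ p, p.Prime → p ∣ y.1 → p ∈ σ.PS
  psM : ∀ p, σ.psM.testBit p = true → p ∈ σ.PS
  Qd : σ.Q ∣ σ.L
  Qp : ∀ p, p.Prime → p ∣ σ.Q → ¬ p * p ∣ g ∧ ∃ y ∈ σ.P, y.1 = p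
  t2 : σ.t2 = true → ∃ x ∈ σ.P, (∃ a, x.1 = 2 ^ a) ∧ ¬ 8 ∣ x.2.2
  B : ∀ y ∈ σ.P, y.1.Prime → y.2.2.gcd (y.1 ^ 64) ∣ σ.B
  nd : ∀ a ∈ σ.nd, Ob R a
  ob : ∀ a ∈ σ.ob, Ob R a
  mgM : ∀ v, σ.mgM.testBit v = true → ∃ y ∈ R, y.1 = v
  miss : ∃ V : Finset ℕ, V.card = σ.miss ∧ ∀ v ∈ V, v ≤ σ.mo ∧ ∃ y ∈ R, y.1 = v
  last : ∀ y ∈ R, le' σ.lc σ.lo σ.ls y

def Good (M : ℕ) (OL : List ℕ) (Q : ℕ → List En → Prop) (σ : St) : Prop :=
  ∀ g R, Inv M OL g σ R → Q g (σ.P.reverse ++ R)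

theorem cond_eq {a b c s u l n m z : ℕ} {x : Bool}
    (h : (a * c - s * b) * z ≤ b * c * (u + (l - n) * (z / c + 1) + (z / max (6 * c) m + 1))) :
    IF(Nat.ble (Nat.mul (Nat.sub (Nat.mul a c) (Nat.mul s b)) z) (Nat.mul (Nat.mul b c) (Nat.add (Nat.add u
      (Nat.mul (Nat.sub l n) (Nat.succ (Nat.div z c)))) (Nat.succ (Nat.div z (max (Nat.mul (nat_lit 6) c) m))))),
      x, true) = x := by
  rw [ble_eq', IF_eq, if_pos (decide_eq_true (by exact h))]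

section
variable {M g : ℕ} {OL : List ℕ} {σ : St} {o s c : ℕ} {R : List En} (I : Inv M OL g σ ((o, s, c) :: R))
include I

theorem Inv.mem_iff {y : En} : y ∈ σ.P.reverse ++ (o, s, c) :: R ↔ y ∈ σ.P ∨ y = (o, s, c) ∨ y ∈ R := by simp

theorem Inv.xm : (o, s, c) ∈ σ.P.reverse ++ (o, s, c) :: R := by simp

theorem Inv.basx : 2 ≤ o ∧ 1 ≤ s ∧ 3 ≤ c ∧ o ∣ c ∧ s ∣ Nat.totient o ∧ c * (Nat.totient o / s) ∣ g ∧ 6 * c ≤ g :=
  I.ax.bas _ I.xm

theorem Inv.basR {y : En} (hy : y ∈ R) : 1 ≤ y.2.1 ∧ le' c o s y :=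
  ⟨(I.ax.bas y (by simp [hy])).2.1, (List.pairwise_cons.1 (List.pairwise_append.1 I.ax.srt).2.1).1 y hy⟩

theorem Inv.basP {y : En} (hy : y ∈ σ.P) : le' y.2.2 y.1 y.2.1 (o, s, c) :=
  (List.pairwise_append.1 I.ax.srt).2.2 y (by simpa using hy) _ List.mem_cons_self

theorem Inv.dvR {d : ℕ} (h1 : 1 < d) (h2 : d < o) (h3 : d ∣ o) : Ob R (d, c) := by
  obtain ⟨y, hy, e1, e2⟩ := I.ax.dv _ I.xm d h1 h3
  have h4 := Nat.le_of_dvd (by have := (I.ax.bas y hy).2.2.1; omega) e2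
  rcases I.mem_iff.1 hy with h | rfl | h
  · have := I.basP h; simp only [le'] at this h4; omega
  · simp at e1; omega
  · exact ⟨y, h, e1, e2⟩

theorem Inv.prP {p : ℕ} (hp : p.Prime) (h1 : p ∣ c) (h2 : ¬ p ∣ o) : ∃ y ∈ σ.P, y.1 = o * p ∧ y.2.2 ∣ c := by
  obtain ⟨y, hy, e1, e2⟩ := I.ax.pr _ I.xm p hp h1 h2
  have h4 := Nat.le_of_dvd (by have := I.basx.2.2.1; simp; omega) e2
  have h5 : o < o * p := by have := I.basx.1; have := hp.two_le; nlinarith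
  rcases I.mem_iff.1 hy with h | rfl | h
  · exact ⟨y, h, e1, e2⟩
  · simp only at e1; omega
  · have := (I.basR h).2; simp only [le'] at this h4 e1; omega

theorem Inv.newR {d : ℕ} (h : ∃ y ∈ σ.P.reverse ++ (o, s, c) :: R, y.1 = d)
    (h1 : (ST(σ.prM, o)).testBit d = false) : Ob R (d, d) := by
  obtain ⟨y, hy, e⟩ := h
  rw [tb_st] at h1
  simp only [Bool.or_eq_false_iff, decide_eq_false_iff_not] at h1
  rcases I.mem_iff.1 hy with h | rfl | h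
  · have := (I.prM d).2 ⟨y, h, e⟩; rw [h1.1] at this; simp at this
  · exact absurd e h1.2
  · exact ⟨y, h, e, e ▸ (I.ax.bas y hy).2.2.2.1⟩

theorem Inv.cdvd : c ∣ g := (Dvd.intro _ rfl).trans I.basx.2.2.2.2.2.1

theorem Inv.sumR : σ.left = s + sumS R := by rw [I.left]; simp [sumS]

theorem Inv.apos : s * σ.b < σ.a * c := by
  have h := I.mss
  have hb : (0 : ℚ) < σ.b := by exact_mod_cast I.bpos
  have hc : (0 : ℚ) < c := by have := I.basx.2.2.1; exact_mod_cast (by omega : 0 < c)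
  have hg : (0 : ℚ) < g := by exact_mod_cast I.ax.gpos
  have h1 : 0 ≤ mass R := List.sum_nonneg fun a ha => by
    obtain ⟨y, -, rfl⟩ := List.mem_map.1 ha; positivity
  have h2 : (s : ℚ) / c < σ.a / σ.b := by
    rw [h]; simp only [mass, List.map_cons, List.sum_cons] at h1 ⊢
    have : 0 < 1 / (g : ℚ) := by positivity
    linarith
  rw [div_lt_div_iff₀ hc hb] at h2
  exact_mod_cast h2

variable {Q : ℕ → List En → Prop} {rec : St → Bool} (hrec : ∀ τ, rec τ = true → Good M OL Q τ) {t : TE}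
  (T : TOK M t) (ho : t.o = o)
include hrec T ho

theorem child3_sound {z L K B psM : ℕ} {PS : List ℕ} {nd ob : List (ℕ × ℕ)} {t2 : Bool} (hL : L ∣ g) (hL1 : σ.L ∣ L)
    (hL2 : c ∣ L) (hK : K ∣ L) (hK1 : ∀ p, p.Prime → p ∣ K → ¬ p * p ∣ g ∧ ∃ y ∈ (o, s, c) :: σ.P, y.1 = p)
    (hP : ∀ p, p ∈ PS ↔ p ∈ σ.PS ∨ p ∈ t.p0 :: t.ps) (hP1 : ∀ p, psM.testBit p = true → p ∈ PS)
    (ht : t2 = true → ∃ x ∈ (o, s, c) :: σ.P, (∃ a, x.1 = 2 ^ a) ∧ ¬ 8 ∣ x.2.2)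
    (hB : ∀ y ∈ (o, s, c) :: σ.P, y.1.Prime → y.2.2.gcd (y.1 ^ 64) ∣ B) (hnd : ∀ a ∈ nd, Ob R a)
    (hob : ∀ a ∈ ob, Ob R a)
    (h : child3 rec σ t z s c L K (Nat.sub σ.left s) (ST(σ.prM, t.o)) B PS psM nd t2 ob = true) :
    Q g (σ.P.reverse ++ (o, s, c) :: R) := by
  subst ho
  have hc : 0 < c := by have := I.basx.2.2.1; omega
  have hR : ∀ y ∈ R, 1 ≤ y.2.1 ∧ c ≤ y.2.2 := fun y hy =>
    ⟨(I.basR hy).1, by have := (I.basR hy).2; simp only [le'] at this; omega⟩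
  have hl : Nat.sub σ.left s = sumS R := by have := I.sumR; show σ.left - s = _; omega
  obtain ⟨n, u, m, w, h1, mg, e1, e2, e3, e4, e5⟩ := mrg_spec (R := R) hc (by
    rintro n u m w ⟨mg, e1, rfl, e3, -⟩
    rw [hl]; exact (mass_le hc mg R hR e1 fun a ha => (e3 a ha).2.2).1) h hob
    ⟨[], by simp, rfl, by simp, fun v hv => absurd ((Nat.zero_testBit v).symm.trans hv) (by decide), by simp⟩
  obtain ⟨f1, f2⟩ := mass_le hc mg R hR e1 fun a ha => (e3 a ha).2.2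
  have hb : (0 : ℚ) < σ.b := by exact_mod_cast I.bpos
  have hc' : (0 : ℚ) < c := by exact_mod_cast hc
  have hg : (0 : ℚ) < g := by exact_mod_cast I.ax.gpos
  have hm : ((σ.a * c - s * σ.b : ℕ) : ℚ) / (σ.b * c : ℕ) = mass R + 1 / g := by
    have h := I.mss
    simp only [mass, List.map_cons, List.sum_cons] at h ⊢
    rw [Nat.cast_sub I.apos.le]
    push_cast
    have : ((σ.a : ℚ) * c - s * σ.b) / (σ.b * c) = σ.a / σ.b - s / c := by field_simp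
    rw [this, h]; ring
  have hbc : 0 < σ.b * c := Nat.mul_pos I.bpos hc
  have hcond : (σ.a * c - s * σ.b) * z ≤ σ.b * c * (u + (sumS R - n) * (z / c + 1) + (z / max (6 * c) L + 1)) := by
    have g1 := zz_div z c hc
    have g2 := zz_div z (max (6 * c) L) (by positivity)
    have g3 : (1 : ℚ) / g ≤ 1 / (max (6 * c) L : ℕ) := one_div_le_one_div_of_le (by positivity)
      (by exact_mod_cast max_le I.basx.2.2.2.2.2.2 (Nat.le_of_dvd I.ax.gpos hL))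
    have g4 : (0 : ℚ) < (σ.b * c : ℕ) := by exact_mod_cast hbc
    rw [div_eq_iff g4.ne'] at hm
    have g5 : (0 : ℚ) ≤ z := Nat.cast_nonneg z
    rw [e2] at f1 f2
    have g6 : (0 : ℚ) ≤ (sumS R : ℚ) - n := by rw [sub_nonneg]; exact_mod_cast f1
    have g7 := mul_le_mul_of_nonneg_left g1 g6
    have g8 : (mass R + 1 / g) * z ≤
        (u + ((sumS R : ℚ) - n) * (z / c + 1 : ℕ) + (z / max (6 * c) L + 1 : ℕ)) := by nlinarith
    have g9 := mul_le_mul_of_nonneg_left g8 g4.le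
    rw [← Nat.cast_le (α := ℚ), Nat.cast_mul (σ.a * c - s * σ.b), hm, Nat.cast_mul (σ.b * c), Nat.cast_add,
      Nat.cast_add, Nat.cast_mul (sumS R - n), Nat.cast_sub f1]
    linarith
  dsimp only at h1
  rw [MX_eq, hl, cond_eq hcond] at h1
  have hd : 0 < (σ.a * c - s * σ.b).gcd (σ.b * c) := Nat.gcd_pos_of_pos_right _ hbc
  have := hrec _ h1 g R ⟨by simpa using I.ax, fun y hy => I.ol y (List.mem_cons_of_mem _ hy), rfl,
    by have := I.leM; have := I.sumR; show sumS R ≤ M; omega,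
    Nat.div_pos (Nat.gcd_le_right _ hbc) hd, ?_, hL, ?_, ?_, ?_, ?_, ?_, hP1, hK, hK1, ht, hB, hnd, hob, e4,
    ⟨(mg.map Prod.fst).toFinset, by rw [List.toFinset_card_of_nodup e1, List.length_map, e2], ?_⟩,
    fun y hy => (I.basR hy).2⟩
  · simpa using this
  · rw [← hm]
    show (((σ.a * c - s * σ.b) / (σ.a * c - s * σ.b).gcd (σ.b * c) : ℕ) : ℚ) /
      ((σ.b * c) / (σ.a * c - s * σ.b).gcd (σ.b * c) : ℕ) = _
    rw [Nat.cast_div (Nat.gcd_dvd_left _ _) (by exact_mod_cast hd.ne'),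
      Nat.cast_div (Nat.gcd_dvd_right _ _) (by exact_mod_cast hd.ne'),
      div_div_div_cancel_right₀ (by exact_mod_cast hd.ne')]
  · intro y hy
    rcases List.mem_cons.1 hy with rfl | hy
    · exact hL2
    · exact (I.Lc y hy).trans hL1
  · intro v
    show (ST(σ.prM, t.o)).testBit v = true ↔ _
    rw [tb_st]; simp [I.prM, or_comm]
  · intro y hy p d h1 h2 h3 h4
    show (Nat.lor σ.cM t.qM).testBit d = true
    rw [tb_lor]
    rcases List.mem_cons.1 hy with rfl | hy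
    · simp [T.qM p d h1 h2 h3 h4]
    · simp [I.cM y hy p d h1 h2 h3 h4]
  · intro p hp
    rcases (hP p).1 hp with h | h
    · exact I.PS p h
    have : p.Prime ∧ p ∣ t.o := by
      rcases List.mem_cons.1 h with rfl | h
      · exact T.p0
      · exact T.ps p h
    exact ⟨this.1, this.2.trans (I.basx.2.2.2.1.trans I.cdvd)⟩
  · intro y hy p h1 h2
    rcases List.mem_cons.1 hy with rfl | hy
    · exact (hP p).2 (Or.inr (List.mem_cons.2 (T.all p h1 h2)))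
    · exact (hP p).2 (Or.inl (I.PS2 y hy p h1 h2))
  · intro v hv
    obtain ⟨a, ha, rfl⟩ := List.mem_map.1 (List.mem_toFinset.1 hv)
    obtain ⟨-, g1, y, hy, g2, -⟩ := e3 a ha
    exact ⟨g1, y, hy, g2⟩

theorem child2_sound {L K : ℕ} {r : ℕ × ℕ × List ℕ × ℕ} (hr : r ∈ t.ss) (hs : r.1 = s) (hL : L ∣ g) (hL1 : σ.L ∣ L)
    (hL2 : c ∣ L) (hK : K ∣ L) (hK1 : ∀ p, p.Prime → p ∣ K → ¬ p * p ∣ g ∧ ∃ y ∈ (o, s, c) :: σ.P, y.1 = p)
    (h : child2 rec σ t s r.2.2.1 c L K = true) : Q g (σ.P.reverse ++ (o, s, c) :: R) := by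
  subst ho
  unfold child2 at h
  dsimp only at h
  generalize hB : (List.rec (motive := fun _ => ℕ) (LCM(σ.B, Nat.gcd c (Nat.pow t.o (nat_lit 64))))
    (fun _ _ _ => σ.B) t.dv : ℕ) = B at h
  have hB1 : ∀ y ∈ (t.o, s, c) :: σ.P, y.1.Prime → y.2.2.gcd (y.1 ^ 64) ∣ B := by
    intro y hy hp
    rw [← hB]
    have hdv := T.dv
    rcases e : t.dv with _ | ⟨d, l⟩
    · dsimp only
      rw [LCM_eq]
      rcases List.mem_cons.1 hy with rfl | hy
      · exact Nat.dvd_lcm_right _ _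
      · exact (I.B y hy hp).trans (Nat.dvd_lcm_left _ _)
    · rcases List.mem_cons.1 hy with rfl | hy
      · obtain ⟨a, b, c⟩ := hdv d (by simp [e])
        rcases (Nat.dvd_prime hp).1 c with e | e <;> omega
      · exact I.B y hy hp
  obtain ⟨PS, psM, h, hP1, hP⟩ := addP_spec h I.psM
  obtain ⟨n0, h, g0⟩ := flt_spec (Q := Ob R) h (by simp) (by
    intro a ha h1
    obtain ⟨y, hy, e1, e2⟩ := I.nd a ha
    rcases List.mem_cons.1 hy with rfl | hy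
    · exact absurd ⟨e1.symm, e2⟩ h1
    · exact ⟨y, hy, e1, e2⟩)
  obtain ⟨n1, h, g1⟩ := addD_spec h g0 fun d hd => I.dvR (T.dv d hd).1 (T.dv d hd).2.1 (T.dv d hd).2.2
  obtain ⟨nd, h, g2⟩ := addO_spec h g1 fun d hd e => I.newR (by
    obtain ⟨e1, e2, -⟩ := T.rq r hr
    obtain ⟨a1, a2, a3, a4⟩ := e2 d hd
    obtain ⟨b1, a, b2⟩ := T.pp a3
    exact I.ax.aut _ I.xm _ a b1 a4 b2 d a1 (by rwa [e1, hs] at a2)) e
  obtain ⟨ob0, h, g3⟩ := addF_spec h g2 (by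
    intro p hp h1
    have hp' : p.Prime ∧ p ∣ g := by
      rcases (hP p).1 hp with h | h
      · exact I.PS p h
      have : p.Prime ∧ p ∣ t.o := by
        rcases List.mem_cons.1 h with rfl | h
        · exact T.p0
        · exact T.ps p h
      exact ⟨this.1, this.2.trans (I.basx.2.2.2.1.trans I.cdvd)⟩
    obtain ⟨y, hy, e1, e2⟩ := I.ax.syl p hp'.1 hp'.2
    have h2 : L.gcd (p ^ 64) ∣ y.2.2 := by
      have h3 : y.2.2 ∣ g := (Dvd.intro _ rfl).trans (I.ax.bas y hy).2.2.2.2.2.1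
      have h4 : (L.gcd (p ^ 64)).Coprime (g / y.2.2) :=
        Nat.Coprime.coprime_dvd_left (Nat.gcd_dvd_right _ _) (Nat.Coprime.pow_left _ (hp'.1.coprime_iff_not_dvd.2 e2))
      refine h4.dvd_of_dvd_mul_right ?_
      rw [Nat.mul_div_cancel' h3]; exact (Nat.gcd_dvd_left _ _).trans hL
    have h5 : y ∈ (t.o, s, c) :: σ.P → False := fun e => h1 ((Nat.dvd_gcd h2 (by
      rw [e1]; exact Nat.gcd_dvd_right _ _)).trans (hB1 y e (e1 ▸ hp'.1)))
    rcases I.mem_iff.1 hy with h | rfl | h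
    · exact (h5 (List.mem_cons_of_mem _ h)).elim
    · exact (h5 List.mem_cons_self).elim
    · exact ⟨y, h, e1, h2⟩)
  rw [IF_eq] at h
  split_ifs at h with h1
  · have ht : ∃ x ∈ (t.o, s, c) :: σ.P, (∃ a, x.1 = 2 ^ a) ∧ ¬ 8 ∣ x.2.2 := by
      rw [DV_eq, beq_eq', IF_eq, IF_eq, IF_eq] at h1
      by_cases h2 : σ.t2 = true
      · obtain ⟨x, hx, e⟩ := I.t2 h2
        exact ⟨x, List.mem_cons_of_mem _ hx, e⟩
      · simp only [h2, decide_eq_true_eq] at h1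
        have h3 : t.pp = 2 ∧ ¬ 8 ∣ c := by by_contra e; split_ifs at h1 <;> tauto
        obtain ⟨-, a, e⟩ := T.pp (by omega)
        exact ⟨_, List.mem_cons_self, ⟨a, h3.1 ▸ e⟩, h3.2⟩
    rw [DV_eq, IF_eq] at h
    split_ifs at h with h2
    · obtain ⟨ob, h, g4⟩ := addT_spec (j := 1) le_rfl h g3 fun j hj e1 e2 => I.newR (by
        obtain ⟨x, hx, ⟨a, e3⟩, e4⟩ := ht
        exact I.ax.t2 x (by simp at hx ⊢; tauto) a e3 e4 ((of_decide_eq_true h2).trans hL) j hj (e1.trans hL)) e2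
      exact child3_sound I hrec T rfl hL hL1 hL2 hK hK1 hP hP1 (fun _ => ht) hB1 g2 g4 h
    · exact child3_sound I hrec T rfl hL hL1 hL2 hK hK1 hP hP1 (fun _ => ht) hB1 g2 g3 h
  · exact child3_sound I hrec T rfl hL hL1 hL2 hK hK1 hP hP1 (by simp) hB1 g2 g3 h

theorem Inv.notQ (h : t.pp ∣ σ.Q) (h0 : t.pp ≠ 0) : False := by
  subst ho
  obtain ⟨h1, a, h2⟩ := T.pp h0
  obtain ⟨h3, y, hy, h4⟩ := I.Qp _ h1 h
  have h5 := I.basx.1
  have h6 : t.o = t.pp := by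
    rcases a with _ | _ | a
    · simp at h2; omega
    · simpa using h2
    · exact absurd (Dvd.dvd.trans ⟨t.pp ^ a, by rw [h2]; ring⟩ (I.basx.2.2.2.1.trans I.cdvd)) h3
  have := (List.pairwise_append.1 I.ax.uniq).2.2 y (by simpa using hy) _ List.mem_cons_self (h4 ▸ h1)
    (by rw [h4]; exact h6)
  exact h3 (h4 ▸ this)

theorem child_sound {r : ℕ × ℕ × List ℕ × ℕ} (hr : r ∈ t.ss) (hs : r.1 = s) {al : List ℕ}
    (hal : ∀ p ∈ al, p.Prime ∧ ¬ p ∣ o) (hQ : ¬ t.pp ∣ σ.Q) (h : child rec σ t s r.2.1 r.2.2.1 al c = true) :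
    Q g (σ.P.reverse ++ (o, s, c) :: R) := by
  have he : r.2.1 = Nat.totient o / s := by rw [(T.rq r hr).1, hs, ho]
  have hL : Nat.lcm σ.L (c * r.2.1) ∣ g := Nat.lcm_dvd I.Ld (he ▸ I.basx.2.2.2.2.2.1)
  have hL1 : σ.L ∣ Nat.lcm σ.L (c * r.2.1) := Nat.dvd_lcm_left _ _
  have hL2 : c ∣ Nat.lcm σ.L (c * r.2.1) := (Dvd.intro _ rfl).trans (Nat.dvd_lcm_right _ _)
  have hK1 : ∀ p, p.Prime → p ∣ σ.Q → ¬ p * p ∣ g ∧ ∃ y ∈ (o, s, c) :: σ.P, y.1 = p := fun p a b =>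
    ⟨(I.Qp p a b).1, by obtain ⟨y, hy, e⟩ := (I.Qp p a b).2; exact ⟨y, List.mem_cons_of_mem _ hy, e⟩⟩
  unfold child at h
  rw [LCM_eq] at h
  change IF(_, IF(_, (fun L : ℕ => _) (Nat.lcm σ.L (c * r.2.1)), true), true) = true at h
  generalize Nat.lcm σ.L (c * r.2.1) = L at h hL hL1 hL2
  rw [IF_eq, if_pos, IF_eq, if_pos] at h
  · dsimp only at h
    rw [IF_eq, if_pos] at h
    · simp only [↓DV_eq, ↓TB_eq, beq_eq', IF_eq, decide_eq_true_eq] at h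
      split_ifs at h with h1 h2 h3 h4 h5 h6
      · exact child2_sound I hrec T ho hr hs hL hL1 hL2 (I.Qd.trans hL1) hK1 h
      · exact child2_sound I hrec T ho hr hs hL hL1 hL2 (I.Qd.trans hL1) hK1 h
      all_goals obtain ⟨g1, a, g2⟩ := T.pp h1
      all_goals obtain ⟨g3, g4, g5⟩ := I.ax.cap _ I.xm _ a g1 (ho ▸ g2) h2
      · exact absurd h3 g4
      · exact absurd (he ▸ h4) g5
      · obtain ⟨y, hy, e⟩ := (I.prM _).1 h5
        have h6 : t.o = t.pp := by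
          have h5 := I.basx.1
          rcases a with _ | _ | a
          · simp at g2; omega
          · simpa using g2
          · exact absurd (Dvd.dvd.trans ⟨t.pp ^ a, by rw [← ho, g2]; ring⟩ (I.basx.2.2.2.1.trans I.cdvd)) g3
        have := (List.pairwise_append.1 I.ax.uniq).2.2 y (by simpa using hy) _ List.mem_cons_self
          (by rw [e, h6]; exact g1) (by rw [e]; exact ho.symm)
        exact absurd (by rwa [e, h6] at this) g3
      · exact absurd (h6.trans hL) g3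
      · have h7 : t.o = t.pp := by
          have h5 := I.basx.1
          rcases a with _ | _ | a
          · simp at g2; omega
          · simpa using g2
          · exact absurd (Dvd.dvd.trans ⟨t.pp ^ a, by rw [← ho, g2]; ring⟩ (I.basx.2.2.2.1.trans I.cdvd)) g3
        refine child2_sound I hrec T ho hr hs hL hL1 hL2 ?_ ?_ h
        · exact Nat.Coprime.mul_dvd_of_dvd_of_dvd (g1.coprime_iff_not_dvd.2 hQ).symm (I.Qd.trans hL1)
            ((h7 ▸ ho ▸ I.basx.2.2.2.1 : t.pp ∣ c).trans hL2)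
        · intro p a b
          rcases (Nat.Prime.dvd_mul a).1 b with b | b
          · exact hK1 p a b
          · rw [(Nat.prime_dvd_prime_iff_eq a g1).1 b]
            exact ⟨g3, _, List.mem_cons_self, ho ▸ h7⟩
    · rw [beq_eq', decide_eq_true_eq]
      refine Nat.eq_one_iff_not_exists_prime_dvd.2 fun p a b => (I.Qp p a (b.trans (Nat.gcd_dvd_right _ _))).1 ?_
      refine Dvd.dvd.trans ?_ hL
      rw [← Nat.div_mul_cancel (I.Qd.trans hL1)]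
      exact Nat.mul_dvd_mul (b.trans (Nat.gcd_dvd_left _ _)) (b.trans (Nat.gcd_dvd_right _ _))
  · refine allL_iff.2 fun p hp => ?_
    rw [DV_eq, IF_eq]
    split_ifs with h1
    · obtain ⟨y, hy, e1, e2⟩ := I.prP (hal p hp).1 (of_decide_eq_true h1) (hal p hp).2
      refine anyL_iff.2 ⟨y, hy, ?_⟩
      rw [DV_eq, beq_eq', IF_eq, if_pos (decide_eq_true (by rw [e1, ho]; rfl))]
      exact decide_eq_true e2
    · rfl
  · have := I.last _ List.mem_cons_self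
    simp only [le'] at this
    simp only [beq_eq', ble_eq', IF_eq, decide_eq_true_eq, ho]
    split_ifs <;> (try simp) <;> omega

theorem cand2_sound {r : ℕ × ℕ × List ℕ × ℕ} (hr : r ∈ t.ss) (hs : r.1 = s) {hi : ℕ} (hc : c ≤ hi) {tight : Bool}
    (hQ : ¬ t.pp ∣ σ.Q) (ht : tight = true → ∀ y ∈ R, y.1 ≠ o) (h : cand2 rec σ hi t r tight = true) :
    Q g (σ.P.reverse ++ (o, s, c) :: R) := by
  unfold cand2 at h
  rw [MX_eq] at h
  have hlo : max σ.lc (Nat.succ (Nat.div (Nat.mul r.1 σ.b) σ.a)) ≤ c := by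
    refine max_le (by have := I.last _ List.mem_cons_self; simp only [le'] at this; omega) ?_
    have := I.apos
    show r.1 * σ.b / σ.a + 1 ≤ c
    rw [hs]
    exact Nat.div_lt_of_lt_mul this
  generalize max σ.lc (Nat.succ (Nat.div (Nat.mul r.1 σ.b) σ.a)) = lo at h hlo
  dsimp only at h
  rw [ble_eq', IF_eq, if_pos (decide_eq_true (hlo.trans hc))] at h
  generalize hv : (IFN(tight, IFN(TB(σ.mgM, t.o), lcq t.o σ.ob t.o, t.o), t.o) : ℕ) = v at h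
  have hv1 : v ∣ c := by
    have h1 : t.o ∣ c := ho ▸ I.basx.2.2.2.1
    rw [← hv, IFN_eq, IFN_eq]
    split_ifs with h2 h3
    · refine lcq_dvd (fun a ha e => ?_) h1
      obtain ⟨y, hy, e1, e2⟩ := I.ob a ha
      rcases List.mem_cons.1 hy with rfl | hy
      · exact e2
      · exact absurd (e1.trans (e.trans ho)) (ht h2 y hy)
    · exact h1
    · exact h1
  obtain ⟨al, al2, h, g1, g2⟩ : ∃ al al2, smooth hi (smZ lo hi t.p0 (child rec σ t r.1 r.2.1 r.2.2.1 al)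
      (nat_lit 300)) (nat_lit 300) al2 v = true ∧ (∀ p ∈ al, p.Prime ∧ ¬ p ∣ o) ∧
      ∀ p, p.Prime → p ∣ c → p = t.p0 ∨ p ∈ al2 := by
    rw [TB_eq, IF_eq] at h
    split_ifs at h with h1
    · obtain ⟨al, al2, h, g1, g2⟩ := flt2_spec h (by simp)
      refine ⟨al, al2, h, fun p hp => ⟨(I.PS p (by simpa using (g1 p hp).1)).1, ho ▸ (g1 p hp).2⟩, fun p a b => ?_⟩
      by_cases h2 : p ∣ t.o
      · exact (T.all p a h2).imp id fun e => g2 p (Or.inl e)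
      · obtain ⟨y, hy, e1, -⟩ := I.prP a b (ho ▸ h2)
        exact Or.inr (g2 p (Or.inr ⟨I.PS2 y hy p a ⟨o, by rw [e1, mul_comm]⟩, (I.prM _).2 ⟨y, hy, ho ▸ e1⟩, h2⟩))
    · refine ⟨[], t.ps, h, by simp, fun p a b => T.all p a ?_⟩
      by_contra h2
      obtain ⟨y, hy, e1, -⟩ := I.prP a b (ho ▸ h2)
      exact h1 (I.cM y hy p _ a h2 (by have := I.basx.1; omega) (ho ▸ e1))
  obtain ⟨m, rfl⟩ := hv1
  obtain ⟨w, j, h, e⟩ := smooth_spec h T.p0.1 (Nat.pos_of_mul_pos_left (a := v) (by have := I.basx.2.2.1; omega))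
    (fun p a b => g2 p a (b.mul_left v)) hc
  have := smZ_spec T.p0.1.pos h (e ▸ hlo) (e ▸ hc)
  rw [← e, hs] at this
  exact child_sound I hrec T ho hr hs g1 hQ this

theorem cand_sound {hi : ℕ} (hc : c ≤ hi) (h : cand rec σ hi t = true) : Q g (σ.P.reverse ++ (o, s, c) :: R) := by
  unfold cand at h
  generalize hY : Nat.lor (ANT(σ.mgM, Nat.shiftLeft (nat_lit 1) t.o)) t.dvM = Y at h
  have hR : ∀ y ∈ R, 1 ≤ y.2.1 := fun y hy => (I.basR hy).1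
  have hY1 : ∀ v, Y.testBit v = true → v ≠ o ∧ ∃ y ∈ R, y.1 = v := by
    intro v hv
    rw [← hY, tb_lor, tb_ant, Bool.or_eq_true, Bool.and_eq_true] at hv
    rcases hv with ⟨h1, h2⟩ | hv
    · have h3 : v ≠ o := by
        rintro rfl
        have : (Nat.shiftLeft (nat_lit 1) t.o).testBit v = true := by
          show (1 <<< t.o).testBit v = true
          rw [Nat.one_shiftLeft, ho, Nat.testBit_two_pow_self]
        rw [this] at h2; simp at h2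
      obtain ⟨y, hy, e⟩ := I.mgM v h1
      rcases List.mem_cons.1 hy with rfl | hy
      · exact absurd e.symm h3
      · exact ⟨h3, y, hy, e⟩
    · obtain ⟨a, b, d⟩ := T.dv v (T.dvM v hv)
      obtain ⟨y, hy, e, -⟩ := I.dvR a (ho ▸ b) (ho ▸ d)
      exact ⟨by omega, y, hy, e⟩
  have hs1 := I.basx.2.1
  have hl := I.sumR
  dsimp only at h
  rw [DV_eq, beq_eq', IF_eq, if_pos, IF_eq] at h
  swap
  · rw [decide_eq_true_eq]
    by_contra e
    obtain ⟨V, e1, e2⟩ := clr_ne e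
    have := card_le_sumS hR fun v hv => (hY1 v (e2 v hv)).2
    have e3 : V.card = σ.left - 1 + 1 := e1
    omega
  have hQ : ¬ t.pp ∣ σ.Q := fun e => I.notQ hrec T ho e (by
    intro e0
    rw [e0, zero_dvd_iff] at e
    have := I.Qd.trans I.Ld
    rw [e, zero_dvd_iff] at this
    exact I.ax.gpos.ne' this)
  rw [if_neg (by simpa using hQ)] at h
  obtain ⟨r, hr, hs⟩ := T.ss s hs1 (by have := I.leM; omega) (ho ▸ I.basx.2.2.2.2.1)
  have key : ∀ (F : ℕ × ℕ × List ℕ × ℕ → Bool) (l : List (ℕ × ℕ × List ℕ × ℕ)), r ∈ l →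
      l.Pairwise (fun r r' => r.1 ≤ r'.1) → List.rec (motive := fun _ => Bool) true
        (fun r _ ih => IF(Nat.ble r.1 σ.left, IF(F r, ih, false), true)) l = true → F r = true := by
    intro F l
    induction l with
    | nil => simp
    | cons a l ih =>
      intro h1 h2 h3
      have h4 : a.1 ≤ σ.left := by
        rcases List.mem_cons.1 h1 with rfl | e
        · omega
        · have := (List.pairwise_cons.1 h2).1 r e; omega
      dsimp only at h3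
      rw [ble_eq', IF_eq, if_pos (decide_eq_true h4), IF_eq] at h3
      split_ifs at h3 with h5
      rcases List.mem_cons.1 h1 with rfl | e
      · exact h5
      · exact ih e (List.pairwise_cons.1 h2).2 h3
  replace h := key _ _ hr T.srt h
  generalize hX : Nat.lor Y (ANT(r.2.2.2, σ.prM)) = X at h
  have hX1 : ∀ v, X.testBit v = true → v ≠ o ∧ ∃ y ∈ R, y.1 = v := by
    intro v hv
    rw [← hX, tb_lor, tb_ant, Bool.or_eq_true, Bool.and_eq_true] at hv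
    rcases hv with hv | ⟨h1, h2⟩
    · exact hY1 v hv
    obtain ⟨e1, e2, e3⟩ := T.rq r hr
    obtain ⟨a1, a2, a3, a4⟩ := e2 v (e3 v h1)
    obtain ⟨b1, a, b2⟩ := T.pp a3
    have h3 : v ≠ o := by
      have h4 := I.basx.1
      have h5 : Nat.totient o < o := Nat.totient_lt o (by omega)
      have h6 : v ∣ Nat.totient o := a2.trans (by
        rw [e1, hs, ho]; exact Nat.div_dvd_of_dvd I.basx.2.2.2.2.1)
      have := Nat.le_of_dvd (Nat.totient_pos.2 (by omega)) h6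
      omega
    obtain ⟨y, hy, e, -⟩ := I.newR (I.ax.aut _ I.xm _ a b1 a4 (ho ▸ b2) v a1 (by rwa [e1, hs, ho] at a2)) (by
      rw [tb_st]; simp at h2; simp [h2, h3.symm])
    exact ⟨h3, y, hy, e⟩
  have e3 : Nat.sub σ.left r.1 = sumS R := by show σ.left - r.1 = _; omega
  rw [e3] at h
  rcases e4 : sumS R with _ | m
  · rw [e4] at h
    replace h : IF(Nat.beq X (nat_lit 0), cand2 rec σ hi t r true, true) = true := h
    have hR0 : ∀ y ∈ R, False := fun y hy => by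
      have := card_le_sumS hR (V := {y.1}) (by simpa using ⟨y.2.1, y.2.2, hy⟩)
      simp [e4] at this
    rw [beq_eq', IF_eq, if_pos] at h
    · exact cand2_sound I hrec T ho hr hs hc hQ (fun _ y hy => (hR0 y hy).elim) h
    · rw [decide_eq_true_eq]
      by_contra e
      obtain ⟨i, hi⟩ := Nat.exists_testBit_of_ne_zero e
      obtain ⟨-, y, hy, -⟩ := hX1 i hi
      exact hR0 y hy
  · rw [e4] at h
    dsimp only at h
    rw [beq_eq', IF_eq, if_pos] at h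
    · refine cand2_sound I hrec T ho hr hs hc hQ (fun e y hy e1 => ?_) h
      rw [ble_eq', decide_eq_true_eq] at e
      obtain ⟨V, e2, e5⟩ := clr_ne (x := X) (n := m) (by have : 1 ≤ clr X m := e; omega)
      have := card_le_sumS hR (V := insert o V) (by
        intro v hv
        rcases Finset.mem_insert.1 hv with rfl | hv
        · exact ⟨y, hy, e1⟩
        · exact (hX1 v (e5 v hv)).2)
      rw [Finset.card_insert_of_notMem fun e => (hX1 o (e5 o e)).1 rfl] at this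
      omega
    · rw [decide_eq_true_eq]
      by_contra e
      obtain ⟨V, e1, e2⟩ := clr_ne (x := X) (n := m + 1) e
      have := card_le_sumS hR fun v hv => (hX1 v (e2 v hv)).2
      omega

end

end Cfsg.Agent.KC
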