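import Cfsg.Agent.Lib.KC.Snd2

/-! Soundness of the search: the main loop and the tables. -/

set_option autoImplicit false

namespace Cfsg.Agent.KC

theorem mass_le' {c : ℕ} (hc : 0 < c) {R : List En} (hR : ∀ y ∈ R, 1 ≤ y.2.1 ∧ c ≤ y.2.2) :
    mass R ≤ sumS R * (1 / (c : ℚ)) := by
  simpa using (mass_le hc [] R hR (by simp) (by simp)).2

theorem step_sound {M : ℕ} {OL : List ℕ} {tabs : ℕ → List TE} (hT : TabOK M tabs OL) {Q : ℕ → List En → Prop}
    {fin : ℕ → List En → Bool} (hfin : ∀ g P, Ax M g P.reverse → fin g P = true → Q g P.reverse) {rec : St → Bool}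
    (hrec : ∀ τ, rec τ = true → Good M OL Q τ) {σ : St} (h : step tabs fin rec σ = true) : Good M OL Q σ := by
  intro g R I
  have hg : (0 : ℚ) < g := by exact_mod_cast I.ax.gpos
  have hb : (0 : ℚ) < σ.b := by exact_mod_cast I.bpos
  unfold step at h
  rw [IF_eq, beq_eq'] at h
  rcases R with _ | ⟨⟨o, s, c⟩, R⟩
  · have h0 : σ.left = 0 := I.left
    have hax : Ax M g σ.P.reverse := by simpa using I.ax
    have hL : σ.L = g := by
      obtain ⟨m, hm⟩ := I.Ld
      have : m = 1 := Nat.eq_one_iff_not_exists_prime_dvd.2 fun p a b => by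
        obtain ⟨y, hy, e1, e2⟩ := hax.syl p a (hm ▸ b.mul_left _)
        obtain ⟨k, hk⟩ := I.Lc y (by simpa using hy)
        have := (hax.bas y hy).2.2.1
        rw [hm, hk, mul_assoc, Nat.mul_div_cancel_left _ (by omega)] at e2
        exact e2 (b.mul_left _)
      rw [hm, this, mul_one]
    have h1 : σ.a * g = σ.b := by
      have := I.mss
      simp only [mass, List.map_nil, List.sum_nil, zero_add] at this
      rw [div_eq_div_iff hb.ne' hg.ne', one_mul] at this
      exact_mod_cast this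
    rw [if_pos (decide_eq_true (by exact h0)), beq_eq', IF_eq, hL, if_pos (decide_eq_true (by exact h1))] at h
    simpa using hfin g _ hax h
  have hl := I.sumR
  obtain ⟨b1, b2, b3, b4, b5, b6, b7⟩ := I.basx
  rw [if_neg (by simp only [decide_eq_true_eq]; show ¬ σ.left = 0; omega)] at h
  have hc : (0 : ℚ) < c := by exact_mod_cast (by omega : 0 < c)
  have hm : (σ.a : ℚ) / σ.b ≤ σ.left * (1 / c) + 1 / g := by
    rw [I.mss, I.left]
    gcongr
    refine mass_le' (by omega) fun y hy => ?_
    rcases List.mem_cons.1 hy with rfl | hy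
    · exact ⟨b2, le_rfl⟩
    · exact ⟨(I.basR hy).1, by have := (I.basR hy).2; simp only [le'] at this; omega⟩
  have ha : 0 < σ.a := Nat.pos_of_mul_pos_right (lt_of_le_of_lt (Nat.zero_le _) I.apos)
  have k1 : c ≤ (6 * σ.left + 1) * σ.b / (6 * σ.a) := by
    rw [Nat.le_div_iff_mul_le (by omega)]
    have h1 : 1 / (g : ℚ) ≤ 1 / (6 * c) := one_div_le_one_div_of_le (by positivity) (by exact_mod_cast b7)
    have h2 : (σ.a : ℚ) / σ.b ≤ (6 * σ.left + 1) / (6 * c) := by
      calc _ ≤ σ.left * (1 / c) + 1 / (6 * c : ℚ) := by linarith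
        _ = _ := by field_simp
    rw [div_le_div_iff₀ hb (by positivity)] at h2
    have : (c : ℚ) * (6 * σ.a) ≤ (6 * σ.left + 1) * σ.b := by linarith
    exact_mod_cast this
  have k2 : σ.a * σ.L - σ.b ≠ 0 → c ≤ σ.left * σ.b * σ.L / (σ.a * σ.L - σ.b) := by
    intro h0
    rw [Nat.le_div_iff_mul_le (by omega)]
    have hL : (0 : ℚ) < σ.L := by exact_mod_cast Nat.pos_of_dvd_of_pos I.Ld I.ax.gpos
    have h1 : 1 / (g : ℚ) ≤ 1 / σ.L := one_div_le_one_div_of_le hL (by exact_mod_cast Nat.le_of_dvd I.ax.gpos I.Ld)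
    have h2 : ((σ.a : ℚ) * σ.L - σ.b) / (σ.b * σ.L) ≤ σ.left / c := by
      calc _ = (σ.a : ℚ) / σ.b - 1 / σ.L := by field_simp
        _ ≤ σ.left * (1 / c) := by linarith
        _ = _ := by ring
    rw [div_le_div_iff₀ (by positivity) hc] at h2
    rw [← Nat.cast_le (α := ℚ), Nat.cast_mul, Nat.cast_sub (by omega)]
    push_cast
    linarith
  dsimp only at h
  generalize hh : (IFN(Nat.beq (Nat.sub (Nat.mul σ.a σ.L) σ.b) (nat_lit 0), _, _) : ℕ) = hi at h
  have k3 : c ≤ hi := by
    rw [← hh, MN_eq, beq_eq', IFN_eq]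
    split_ifs with h1
    · exact k1
    · exact le_min k1 (k2 (by simpa using h1))
  have k4 : σ.lc ≤ c := by have := I.last _ List.mem_cons_self; simp only [le'] at this; omega
  rw [ble_eq', IF_eq, if_pos (decide_eq_true (k4.trans k3))] at h
  obtain ⟨t1, t2, t3⟩ := hT σ.left I.leM
  have hR : ∀ y ∈ R, 1 ≤ y.2.1 := fun y hy => (I.basR hy).1
  rcases t3 o (I.ol _ List.mem_cons_self) with ⟨t, ht, ho⟩ | ⟨dv, e1, e2, e3⟩
  · refine cand_sound I hrec (t2 t ht) ho k3 (allT_spec h t1 ht ?_)
    have k5 : o ≤ hi := (Nat.le_of_dvd (by omega) b4).trans k3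
    rw [MN_eq, beq_eq', IFN_eq, ho]
    split_ifs with h1
    · refine le_min k5 ?_
      obtain ⟨V, e1, e2⟩ := I.miss
      by_contra e
      have := card_le_sumS hR (V := V) fun v hv => by
        obtain ⟨a, y, hy, b⟩ := e2 v hv
        rcases List.mem_cons.1 hy with rfl | hy
        · exact absurd (le_of_eq_of_le b a) e
        · exact ⟨y, hy, b⟩
      have := of_decide_eq_true h1
      omega
    · exact k5
  · have := card_le_sumS hR (V := dv.toFinset) fun v hv => by
      obtain ⟨a, b, c⟩ := e3 v (List.mem_toFinset.1 hv)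
      obtain ⟨y, hy, e, -⟩ := I.dvR a b c
      exact ⟨y, hy, e⟩
    rw [List.toFinset_card_of_nodup e1] at this
    omega

theorem go_sound {M : ℕ} {OL : List ℕ} {tabs : ℕ → List TE} (hT : TabOK M tabs OL) {Q : ℕ → List En → Prop}
    {fin : ℕ → List En → Bool} (hfin : ∀ g P, Ax M g P.reverse → fin g P = true → Q g P.reverse)
    {skip : List En → Bool} (hskip : ∀ P, skip P = true → ∀ g R, Q g (P.reverse ++ R)) (n : ℕ) :
    ∀ σ, go tabs fin skip n σ = true → Good M OL Q σ := by
  induction n with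
  | zero => intro σ h; exact absurd h (by simp [go])
  | succ n ih =>
    intro σ h
    replace h : IF(skip σ.P, true, step tabs fin (go tabs fin skip n) σ) = true := h
    rw [IF_eq] at h
    split_ifs at h with h1
    · exact fun g R _ => hskip _ h1 g R
    · exact step_sound hT hfin ih h

theorem inv_st0 {M g : ℕ} {OL : List ℕ} {L : List En} (h : Ax M g L) (ho : ∀ y ∈ L, y.1 ∈ OL) :
    Inv M OL g (st0 M) L := by
  refine ⟨by simpa [st0] using h, ho, h.sum.symm, le_rfl, one_pos, by simpa [st0] using h.mss, one_dvd _,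
    by simp [st0], by simp [st0], by simp [st0], by simp [st0], by simp [st0], by simp [st0], dvd_rfl, ?_,
    by simp [st0], by simp [st0], by simp [st0], by simp [st0], by simp [st0], ⟨∅, rfl, by simp⟩, ?_⟩
  · intro p hp h; exact absurd (Nat.dvd_one.1 h) hp.ne_one
  · intro y hy
    obtain ⟨-, -, h1, h2, -⟩ := h.bas y hy
    have := Nat.le_of_dvd (by omega) h2
    simp only [le', st0]; omega

/-- selection of a part of the search -/
noncomputable def hsh (x y z : En) : ℕ :=
  Nat.add (Nat.add (Nat.add (Nat.mul x.2.2 (nat_lit 7)) (Nat.mul x.1 (nat_lit 3))) (Nat.add x.2.1 (Nat.mul y.1 (nat_lit 5))))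
    (Nat.add (Nat.add (Nat.mul y.2.2 (nat_lit 11)) (Nat.mul y.2.1 (nat_lit 13)))
      (Nat.add (Nat.mul z.2.2 (nat_lit 17)) (Nat.add (Nat.mul z.1 (nat_lit 19)) (Nat.mul z.2.1 (nat_lit 23)))))

noncomputable def skipH (N i N' i' : ℕ) (P : List En) : Bool :=
  List.rec (motive := fun _ => Bool) false (fun x P _ => List.rec (motive := fun _ => Bool) false (fun y P _ =>
    List.rec (motive := fun _ => Bool) false (fun z P _ => List.rec (motive := fun _ => Bool)
      (IF(Nat.beq (Nat.mod (hsh x y z) N) i, false, true)) (fun w P _ =>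
      List.rec (motive := fun _ => Bool) (IF(Nat.beq (Nat.mod (Nat.add (hsh x y z) (hsh w w w)) N') i', false, true))
        (fun _ _ _ => false) P) P) P) P) P

/-- the keys of a list -/
noncomputable def key (N : ℕ) : List En → ℕ
  | z :: y :: x :: _ => (hsh x y z) % N
  | _ => 0

noncomputable def key' (N : ℕ) : List En → ℕ
  | w :: z :: y :: x :: _ => (hsh x y z + hsh w w w) % N
  | _ => 0

theorem skip_aux {a N i : ℕ} (h : IF(Nat.beq (Nat.mod a N) i, false, true) = true) : a % N ≠ i := by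
  rw [beq_eq', IF_eq] at h
  intro e
  rw [if_pos (decide_eq_true (by exact e))] at h
  exact absurd h (by simp)

theorem main_sound {M : ℕ} {OL : List ℕ} {tabs : ℕ → List TE} (hT : TabOK M tabs OL) {Q : ℕ → List En → Prop}
    {fin : ℕ → List En → Bool} (hfin : ∀ g P, Ax M g P.reverse → fin g P = true → Q g P.reverse) {N N' n : ℕ}
    (hN : 0 < N) (hN' : 0 < N') (hgo : ∀ i < N, ∀ j < N', go tabs fin (skipH N i N' j) n (st0 M) = true) {g : ℕ}
    {L : List En} (h : Ax M g L) (ho : ∀ y ∈ L, y.1 ∈ OL) : Q g L := by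
  have hk : key N L < N := by
    unfold key; split
    · exact Nat.mod_lt _ hN
    · exact hN
  have hk' : key' N' L < N' := by
    unfold key'; split
    · exact Nat.mod_lt _ hN'
    · exact hN'
  refine go_sound hT (Q := fun g L' => key N L' = key N L → key' N' L' = key' N' L → Q g L')
    (fun g P a b _ _ => hfin g P a b) ?_ n _ (hgo _ hk _ hk') g L (inv_st0 h ho) rfl rfl
  intro P hP g R e e'
  exfalso
  rcases P with _ | ⟨x, _ | ⟨y, _ | ⟨z, _ | ⟨w, _ | ⟨v, P⟩⟩⟩⟩⟩
  · exact absurd hP (by simp [skipH])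
  · exact absurd hP (by simp [skipH])
  · exact absurd hP (by simp [skipH])
  · exact skip_aux hP e
  · exact skip_aux hP e'
  · exact absurd hP (by simp [skipH])

end Cfsg.Agent.KC
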