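import Mathlib

/-! The search over class data: definitions. -/

set_option autoImplicit false

namespace Cfsg.Agent.KC
noncomputable section

abbrev En := ℕ × ℕ × ℕ

scoped notation "IF(" b ", " x ", " y ")" => Bool.rec (motive := fun _ => Bool) y x b
scoped notation "IFN(" b ", " x ", " y ")" => Bool.rec (motive := fun _ => Nat) y x b
scoped notation "TB(" m ", " n ")" => Nat.beq (Nat.land (Nat.shiftRight m n) (nat_lit 1)) (nat_lit 1)
scoped notation "ST(" m ", " n ")" => Nat.lor m (Nat.shiftLeft (nat_lit 1) n)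
scoped notation "DV(" a ", " b ")" => Nat.beq (Nat.mod b a) (nat_lit 0)
scoped notation "MX(" a ", " b ")" => Nat.add a (Nat.sub b a)
scoped notation "MN(" a ", " b ")" => Nat.sub a (Nat.sub a b)
scoped notation "LCM(" a ", " b ")" => Nat.mul (Nat.div a (Nat.gcd a b)) b
scoped notation "ANT(" a ", " b ")" => Nat.xor a (Nat.land a b)
scoped notation "CL(" a ")" => Nat.land a (Nat.sub a (nat_lit 1))
scoped notation "ZZ!" => nat_lit 0x10000000000000000000000000

def allL {α : Type} (l : List α) (f : α → Bool) : Bool :=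
  List.rec (motive := fun _ => Bool) true (fun a _ ih => IF(f a, ih, false)) l

def anyL {α : Type} (l : List α) (f : α → Bool) : Bool :=
  List.rec (motive := fun _ => Bool) false (fun a _ ih => IF(f a, true, ih)) l

/-- clear the `n` lowest set bits -/
def clr (x n : ℕ) : ℕ := Nat.rec (motive := fun _ => ℕ) x (fun _ y => CL(y)) n

/-- drop the obligations met by the new entry -/
def flt (o c : ℕ) (l : List (ℕ × ℕ)) (k : List (ℕ × ℕ) → Bool) : List (ℕ × ℕ) → Bool :=
  List.rec (motive := fun _ => List (ℕ × ℕ) → Bool) k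
    (fun a _ ih acc => IF(Nat.beq a.1 o, IF(DV(a.2, c), ih acc, ih (a :: acc)), ih (a :: acc))) l

/-- add obligations `(d, c)` -/
def addD (l : List ℕ) (c : ℕ) (k : List (ℕ × ℕ) → Bool) : List (ℕ × ℕ) → Bool :=
  List.rec (motive := fun _ => List (ℕ × ℕ) → Bool) k (fun d _ ih acc => ih ((d, c) :: acc)) l

/-- add obligations `(d, d)` for the `d` not in the mask -/
def addO (l : List ℕ) (m : ℕ) (k : List (ℕ × ℕ) → Bool) : List (ℕ × ℕ) → Bool :=
  List.rec (motive := fun _ => List (ℕ × ℕ) → Bool) k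
    (fun d _ ih acc => IF(TB(m, d), ih acc, ih ((d, d) :: acc))) l

/-- loop over the powers of the last prime -/
def smZ (lo hi p : ℕ) (f : ℕ → Bool) (n : ℕ) : ℕ → Bool :=
  Nat.rec (motive := fun _ => ℕ → Bool) (fun _ => false)
    (fun _ ih v => IF(Nat.ble lo v, IF(Nat.ble v hi, IF(f v, ih (Nat.mul v p), false), true), ih (Nat.mul v p))) n

/-- all `v * m` in `[lo, hi]` with `m` smooth -/
def smooth (hi : ℕ) (g : ℕ → Bool) (n : ℕ) (ps : List ℕ) : ℕ → Bool :=
  List.rec (motive := fun _ => ℕ → Bool) g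
    (fun p _ ih => Nat.rec (motive := fun _ => ℕ → Bool) (fun _ => false)
      (fun _ ih2 v => IF(Nat.ble v hi, IF(ih v, ih2 (Nat.mul v p), false), true)) n) ps

/-- Sylow obligations -/
def addF (PS : List ℕ) (L B : ℕ) (k : List (ℕ × ℕ) → Bool) : List (ℕ × ℕ) → Bool :=
  List.rec (motive := fun _ => List (ℕ × ℕ) → Bool) k
    (fun p _ ih acc => IF(DV(Nat.gcd L (Nat.pow p (nat_lit 64)), B), ih acc,
      ih ((p, Nat.gcd L (Nat.pow p (nat_lit 64))) :: acc))) PS

/-- obligations for a Sylow 2-subgroup of maximal class -/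
def addT (L m : ℕ) (k : List (ℕ × ℕ) → Bool) (n : ℕ) : ℕ → List (ℕ × ℕ) → Bool :=
  Nat.rec (motive := fun _ => ℕ → List (ℕ × ℕ) → Bool) (fun _ acc => k acc)
    (fun _ ih v acc => IF(DV(Nat.mul v (nat_lit 2), L),
      IF(TB(m, v), ih (Nat.mul v (nat_lit 2)) acc, ih (Nat.mul v (nat_lit 2)) ((v, v) :: acc)), k acc)) n

/-- least common multiple of the obligations for one order -/
def lcq (n : ℕ) (l : List (ℕ × ℕ)) : ℕ → ℕ :=
  List.rec (motive := fun _ => ℕ → ℕ) (fun q => q)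
    (fun a _ ih q => IFN(Nat.beq a.1 n, ih (LCM(q, a.2)), ih q)) l

/-- two filters at once -/
def flt2 (o m : ℕ) (l : List ℕ) (k : List ℕ → List ℕ → Bool) : List ℕ → List ℕ → Bool :=
  List.rec (motive := fun _ => List ℕ → List ℕ → Bool) k
    (fun a _ ih u v => IF(TB(m, Nat.mul o a), IF(DV(a, o), ih u v, ih (a :: u) (a :: v)), ih u v)) l

/-- merge obligations: number of orders, bound for the mass, mask, largest order -/
def mrg (z c left : ℕ) (l : List (ℕ × ℕ)) (k : ℕ → ℕ → ℕ → ℕ → Bool) : ℕ → ℕ → ℕ → ℕ → Bool :=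
  List.rec (motive := fun _ => ℕ → ℕ → ℕ → ℕ → Bool) k
    (fun a _ ih n u m w => IF(TB(m, a.1), ih n u m w, IF(Nat.ble left n, true,
      ih (Nat.succ n) (Nat.add u (Nat.succ (Nat.div z (MX(a.2, c))))) (ST(m, a.1)) (MX(w, a.1))))) l

/-- table entry for an element order -/
structure TE : Type where
  o : ℕ
  pp : ℕ
  p0 : ℕ
  ps : List ℕ
  dv : List ℕ
  dvM : ℕ
  qM : ℕ
  ss : List (ℕ × ℕ × List ℕ × ℕ)

structure St : Type where
  left : ℕ
  a : ℕ
  b : ℕ
  L : ℕ
  P : List En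
  prM : ℕ
  cM : ℕ
  PS : List ℕ
  psM : ℕ
  Q : ℕ
  t2 : Bool
  B : ℕ
  nd : List (ℕ × ℕ)
  ob : List (ℕ × ℕ)
  mgM : ℕ
  miss : ℕ
  mo : ℕ
  lc : ℕ
  lo : ℕ
  ls : ℕ

/-- add new primes -/
def addP (l : List ℕ) (k : List ℕ → ℕ → Bool) : List ℕ → ℕ → Bool :=
  List.rec (motive := fun _ => List ℕ → ℕ → Bool) k
    (fun d _ ih PS m => IF(TB(m, d), ih PS m, ih (d :: PS) (ST(m, d)))) l

/-- the end of the treatment of a candidate -/
def child3 (rec : St → Bool) (σ : St) (t : TE) (z s c L Q left prM B : ℕ) (PS : List ℕ) (psM : ℕ)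
    (nd : List (ℕ × ℕ)) (t2 : Bool) (ob : List (ℕ × ℕ)) : Bool :=
  mrg z c left ob (fun n u m w => (fun a1 b1 : ℕ =>
      IF(Nat.ble (Nat.mul a1 z) (Nat.mul b1 (Nat.add (Nat.add u
          (Nat.mul (Nat.sub left n) (Nat.succ (Nat.div z c))))
          (Nat.succ (Nat.div z (MX(Nat.mul (nat_lit 6) c, L)))))),
        rec ⟨left, Nat.div a1 (Nat.gcd a1 b1), Nat.div b1 (Nat.gcd a1 b1), L, (t.o, s, c) :: σ.P, prM,
          Nat.lor σ.cM t.qM, PS, psM, Q, t2, B, nd, ob, m, n, w, c, t.o, s⟩, true))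
      (Nat.sub (Nat.mul σ.a c) (Nat.mul s σ.b)) (Nat.mul σ.b c))
    (nat_lit 0) (nat_lit 0) (nat_lit 0) (nat_lit 0)

/-- last part of the treatment of a candidate -/
def child2 (rec : St → Bool) (σ : St) (t : TE) (s : ℕ) (req : List ℕ) (c L Q : ℕ) : Bool :=
  (fun prM B : ℕ =>
    addP (t.p0 :: t.ps) (fun PS psM =>
      flt t.o c σ.nd (addD t.dv c (addO req prM fun nd => addF PS L B (fun ob0 =>
        (fun (k : Bool → List (ℕ × ℕ) → Bool) =>
          IF(IF(σ.t2, true, IF(Nat.beq t.pp (nat_lit 2), IF(DV(nat_lit 8, c), false, true), false)),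
            IF(DV(nat_lit 8, L), addT L prM (k true) (nat_lit 14) (nat_lit 2) ob0, k true ob0), k false ob0))
        (child3 rec σ t ZZ! s c L Q (Nat.sub σ.left s) prM B PS psM nd)) nd)) []) σ.PS σ.psM)
  (ST(σ.prM, t.o))
  (List.rec (motive := fun _ => ℕ) (LCM(σ.B, Nat.gcd c (Nat.pow t.o (nat_lit 64)))) (fun _ _ _ => σ.B) t.dv)

/-- treatment of a candidate -/
def child (rec : St → Bool) (σ : St) (t : TE) (s e : ℕ) (req al : List ℕ) (c : ℕ) : Bool :=
  IF(IF(Nat.beq c σ.lc, IF(Nat.ble σ.lo t.o, IF(Nat.beq t.o σ.lo, Nat.ble σ.ls s, false), true), true),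
    IF(allL al fun p => IF(DV(p, c), anyL σ.P fun y => IF(Nat.beq y.1 (Nat.mul t.o p), DV(y.2.2, c), false), true),
      (fun L : ℕ =>
        IF(Nat.beq (Nat.gcd (Nat.div L σ.Q) σ.Q) (nat_lit 1),
          IF(Nat.beq t.pp (nat_lit 0), child2 rec σ t s req c L σ.Q,
            IF(DV(Nat.mul t.pp t.pp, c), child2 rec σ t s req c L σ.Q,
              IF(Nat.beq t.pp (nat_lit 2), true, IF(Nat.beq e (nat_lit 1), true,
                IF(TB(σ.prM, t.o), true, IF(DV(Nat.mul t.pp t.pp, L), true,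
                  child2 rec σ t s req c L (Nat.mul σ.Q t.pp))))))), true)) (LCM(σ.L, Nat.mul c e)), true), true)

/-- loop over a sorted table -/
def allT (l : List TE) (hi : ℕ) (f : TE → Bool) : Bool :=
  List.rec (motive := fun _ => Bool) true (fun t _ ih => IF(Nat.ble t.o hi, IF(f t, ih, false), true)) l

/-- enumeration of the centralizer orders -/
def cand2 (rec : St → Bool) (σ : St) (hi : ℕ) (t : TE) (r : ℕ × ℕ × List ℕ × ℕ) (tight : Bool) : Bool :=
  (fun lo : ℕ => IF(Nat.ble lo hi,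
    (fun (k : List ℕ → List ℕ → Bool) => IF(TB(σ.cM, t.o), flt2 t.o σ.prM σ.PS k [] t.ps, k [] t.ps))
      (fun al al2 => smooth hi (smZ lo hi t.p0 (child rec σ t r.1 r.2.1 r.2.2.1 al) (nat_lit 300)) (nat_lit 300) al2
        (IFN(tight, IFN(TB(σ.mgM, t.o), lcq t.o σ.ob t.o, t.o), t.o))), true))
  (MX(σ.lc, Nat.succ (Nat.div (Nat.mul r.1 σ.b) σ.a)))

/-- treatment of a candidate order -/
def cand (rec : St → Bool) (σ : St) (hi : ℕ) (t : TE) : Bool :=
  (fun Y : ℕ => IF(Nat.beq (clr Y (Nat.sub σ.left (nat_lit 1))) (nat_lit 0),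
    IF(DV(t.pp, σ.Q), true,
      List.rec (motive := fun _ => Bool) true (fun r _ ih => IF(Nat.ble r.1 σ.left,
        IF((fun X : ℕ => Nat.rec (motive := fun _ => Bool)
            (IF(Nat.beq X (nat_lit 0), cand2 rec σ hi t r true, true))
            (fun m _ => (fun W : ℕ => IF(Nat.beq (CL(W)) (nat_lit 0),
              cand2 rec σ hi t r (Nat.ble (nat_lit 1) W), true)) (clr X m)) (Nat.sub σ.left r.1))
          (Nat.lor Y (ANT(r.2.2.2, σ.prM))), ih, false), true)) t.ss), true))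
  (Nat.lor (ANT(σ.mgM, Nat.shiftLeft (nat_lit 1) t.o)) t.dvM)

def step (tabs : ℕ → List TE) (fin : ℕ → List En → Bool) (rec : St → Bool) (σ : St) : Bool :=
  IF(Nat.beq σ.left (nat_lit 0), IF(Nat.beq (Nat.mul σ.a σ.L) σ.b, fin σ.L σ.P, true),
    (fun h1 w : ℕ => (fun hi : ℕ => IF(Nat.ble σ.lc hi,
        allT (tabs σ.left) (IFN(Nat.beq σ.miss σ.left, MN(hi, σ.mo), hi)) (cand rec σ hi), true))
      (IFN(Nat.beq w (nat_lit 0), h1, MN(h1, Nat.div (Nat.mul (Nat.mul σ.left σ.b) σ.L) w))))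
    (Nat.div (Nat.mul (Nat.succ (Nat.mul (nat_lit 6) σ.left)) σ.b) (Nat.mul (nat_lit 6) σ.a))
    (Nat.sub (Nat.mul σ.a σ.L) σ.b))

def go (tabs : ℕ → List TE) (fin : ℕ → List En → Bool) (skip : List En → Bool) (n : ℕ) : St → Bool :=
  Nat.rec (motive := fun _ => St → Bool) (fun _ => false)
    (fun _ ih σ => IF(skip σ.P, true, step tabs fin ih σ)) n

def st0 (M : ℕ) : St := ⟨M, 1, 1, 1, [], 0, 0, [], 0, 1, false, 1, [], [], 0, 0, 0, 3, 4, 0⟩

/-- table lookup by level -/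
def nthT (l : List (List TE)) : ℕ → List TE :=
  List.rec (motive := fun _ => ℕ → List TE) (fun _ => [])
    (fun a _ ih i => Nat.rec (motive := fun _ => List TE) a (fun j _ => ih j) i) l

/-- mask of a list -/
def mk (l : List ℕ) : ℕ := List.rec (motive := fun _ => ℕ) (nat_lit 0) (fun d _ ih => ST(ih, d)) l

end
end Cfsg.Agent.KC
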