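import Cfsg.Agent.Lib.KC.Snd3

/-! The possible element orders and the check of the tables. -/

set_option autoImplicit false

namespace Cfsg.Agent.KC

noncomputable def memL (n : ℕ) (l : List ℕ) : Bool := anyL l (Nat.beq n)

theorem memL_iff {n : ℕ} {l : List ℕ} : memL n l = true ↔ n ∈ l := by simp [memL, anyL_iff]

noncomputable def isPa (n k : ℕ) : ℕ → Bool :=
  Nat.rec (motive := fun _ => ℕ → Bool) (fun _ => true)
    (fun _ ih d => IF(Nat.ble (Nat.mul d d) n, IF(DV(d, n), false, ih (Nat.succ d)), true)) k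

noncomputable def isP (n : ℕ) : Bool := isPa n n (nat_lit 2)

theorem isPa_succ (n k d : ℕ) : isPa n (k + 1) d = if d * d ≤ n then (if d ∣ n then false else isPa n k (d + 1))
    else true := by
  have : isPa n (k + 1) d = IF(Nat.ble (d * d) n, IF(DV(d, n), false, isPa n k (d + 1)), true) := rfl
  rw [this, DV_eq, ble_eq', IF_eq, IF_eq]; simp

theorem isP_of_prime {n : ℕ} (h : n.Prime) : isP n = true := by
  have : ∀ k d, 2 ≤ d → isPa n k d = true := by
    intro k
    induction k with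
    | zero => intro d _; rfl
    | succ k ih =>
      intro d hd
      rw [isPa_succ]
      split_ifs with h1 h2
      · rcases (Nat.dvd_prime h).1 h2 with e | e
        · omega
        · subst e; nlinarith
      · exact ih _ (by omega)
      · rfl
  exact this n 2 le_rfl

theorem prime_of_isP {n : ℕ} (h2 : 2 ≤ n) (h : isP n = true) : n.Prime := by
  have : ∀ k d, isPa n k d = true → ∀ m, d ≤ m → m < d + k → m * m ≤ n → ¬ m ∣ n := by
    intro k
    induction k with
    | zero => intro d _ m a b; omega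
    | succ k ih =>
      intro d h m a b c
      rw [isPa_succ, if_pos (by nlinarith)] at h
      split_ifs at h with h1
      rcases a.eq_or_lt with rfl | a
      · exact h1
      · exact ih _ h m a (by omega) c
  refine Nat.prime_def_le_sqrt.2 ⟨h2, fun m a b => this n 2 h m a ?_ (Nat.le_sqrt.1 b)⟩
  have := Nat.sqrt_le_self n
  omega

noncomputable def allN (n : ℕ) (f : ℕ → Bool) : Bool :=
  Nat.rec (motive := fun _ => Bool) true (fun i ih => IF(f (Nat.succ i), ih, false)) n

theorem allN_spec {n : ℕ} {f : ℕ → Bool} (h : allN n f = true) {s : ℕ} (h1 : 1 ≤ s) (h2 : s ≤ n) : f s = true := by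
  induction n with
  | zero => omega
  | succ n ih =>
    replace h : IF(f (n + 1), allN n f, false) = true := h
    rw [IF_eq] at h
    split_ifs at h with h3
    rcases h2.eq_or_lt with rfl | h2
    · exact h3
    · exact ih h (by omega)

noncomputable def p1s (O : List ℕ) (ih : List ℕ → ℕ → ℕ → Bool) (cur : List ℕ) (left last : ℕ) : Bool :=
  IF(Nat.beq left (nat_lit 0), true,
    IF(allL cur fun p => allL cur fun m => IF(Nat.ble p m, IF(Nat.ble (Nat.mul m p) last, true,
        IF(allL cur fun q => IF(DV(q, Nat.mul m p), IF(Nat.ble p q, memL (Nat.div (Nat.mul m p) q) cur, false), true),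
          IF(memL (Nat.mul m p) O, ih (Nat.mul m p :: cur) (Nat.sub left (nat_lit 1)) (Nat.mul m p), false), true)),
          true),
      allL (nat_lit 1 :: cur) fun e => allN left fun s => (fun n : ℕ => IF(Nat.ble n last, true,
        IF(anyL cur fun q => DV(q, n), true, IF(isP n, IF(memL n O, ih (n :: cur) (Nat.sub left s) n, false), true))))
        (Nat.succ (Nat.mul s e)), false))

noncomputable def p1 (O : List ℕ) (k : ℕ) : List ℕ → ℕ → ℕ → Bool :=
  Nat.rec (motive := fun _ => List ℕ → ℕ → ℕ → Bool) (fun _ _ _ => false) (fun _ ih => p1s O ih) k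

theorem tl_le {L : List En} {y : En} (hy : y ∈ L) {a : ℕ} (ha : a < y.1) :
    sumS (L.filter fun z => y.1 < z.1) + y.2.1 ≤ sumS (L.filter fun z => a < z.1) := by
  have mono : ∀ L : List En, sumS (L.filter fun z => y.1 < z.1) ≤ sumS (L.filter fun z => a < z.1) := fun L =>
    ((List.monotone_filter_right L (by intro z; simp; omega)).map _).sum_le_sum (by simp)
  obtain ⟨L1, L2, rfl⟩ := List.append_of_mem hy
  have h1 := mono L1
  have h2 := mono L2
  simp only [sumS, List.filter_append, List.map_append, List.sum_append, List.filter_cons, lt_irrefl, ha,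
    decide_true, decide_false, if_true, List.map_cons, List.sum_cons] at *
  simp only [Bool.false_eq_true, if_false]
  omega

theorem p1_sound {M g : ℕ} {L : List En} (A : Ax M g L) {O : List ℕ} (k : ℕ) : ∀ (cur : List ℕ) (left last : ℕ),
    p1 O k cur left last = true → (∀ y ∈ L, y.1 ≤ last → y.1 ∈ cur) → (∀ q ∈ cur, 2 ≤ q ∧ q ≤ last) →
    sumS (L.filter fun z => last < z.1) ≤ left → ∀ y ∈ L, last < y.1 → y.1 ∈ O := by
  induction k with
  | zero => intro _ _ _ h; exact absurd h (by simp [p1])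
  | succ k ih =>
    intro cur left last h h1 h2 h3 y0 hy0 hl0
    obtain ⟨y, ⟨hy, hl⟩, hmin⟩ := WellFounded.has_min (InvImage.wf (fun z : En => z.1) wellFounded_lt)
      {z | z ∈ L ∧ last < z.1} ⟨y0, hy0, hl0⟩
    have hm : ∀ z ∈ L, z.1 < y.1 → z.1 ∈ cur := fun z hz e => h1 z hz (by
      by_contra e'; exact hmin z ⟨hz, by omega⟩ e)
    have h4 := tl_le hy hl
    obtain ⟨b1, b2, -, -, b5, -⟩ := A.bas y hy
    have fin : ∀ s, s ≤ y.2.1 → IF(memL y.1 O, p1 O k (y.1 :: cur) (left - s) y.1, false) = true → y0.1 ∈ O := by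
      intro s hs h
      rw [IF_eq] at h
      split_ifs at h with h5
      rcases (show y.1 ≤ y0.1 from not_lt.1 (hmin y0 ⟨hy0, hl0⟩)).eq_or_lt with e | e
      · exact e ▸ memL_iff.1 h5
      refine ih _ _ _ h (fun z hz e => ?_) (fun q hq => ?_) (by omega) y0 hy0 e
      · rcases e.eq_or_lt with e | e
        · rw [e]; exact List.mem_cons_self
        · exact List.mem_cons_of_mem _ (hm z hz e)
      · rcases List.mem_cons.1 hq with rfl | hq
        · exact ⟨b1, le_rfl⟩
        · have := h2 q hq; omega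
    have hd : ∀ d, 1 < d → d < y.1 → d ∣ y.1 → d ∈ cur := fun d a b c => by
      obtain ⟨z, hz, rfl, -⟩ := A.dv y hy d a c
      exact hm z hz b
    replace h : p1s O (p1 O k) cur left last = true := h
    unfold p1s at h
    rw [beq_eq', IF_eq, if_neg (by simp only [decide_eq_true_eq]; show ¬ left = 0; omega), IF_eq] at h
    split_ifs at h with h5
    by_cases hp : y.1.Prime
    · have e1 : y.2.1 * ((y.1 - 1) / y.2.1) + 1 = y.1 := by
        rw [Nat.totient_prime hp] at b5
        rw [Nat.mul_div_cancel' b5]; omega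
      have e2 : (y.1 - 1) / y.2.1 ∈ nat_lit 1 :: cur := by
        by_cases e : (y.1 - 1) / y.2.1 = 1
        · rw [e]; exact List.mem_cons_self
        have e3 : 1 < (y.1 - 1) / y.2.1 := by
          rcases e4 : (y.1 - 1) / y.2.1 with _ | _ | n
          · rw [e4] at e1; omega
          · exact absurd e4 e
          · omega
        have e4 : (y.1 - 1) / y.2.1 ≤ y.1 - 1 := Nat.div_le_self _ _
        obtain ⟨z, hz, e5⟩ := A.aut y hy y.1 1 hp (by omega) (pow_one _).symm _ e3 (by rw [Nat.totient_prime hp])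
        exact List.mem_cons_of_mem _ (e5 ▸ hm z hz (by omega))
      have h6 := allN_spec (allL_iff.1 h _ e2) b2 (by omega)
      have e6 : Nat.succ (Nat.mul y.2.1 ((y.1 - 1) / y.2.1)) = y.1 := e1
      dsimp only at h6
      rw [e6] at h6
      rw [ble_eq', IF_eq, if_neg (by simp; omega), IF_eq, if_neg, isP_of_prime hp] at h6
      · exact fin _ le_rfl h6
      · intro e
        obtain ⟨q, hq, e⟩ := anyL_iff.1 e
        rw [DV_eq, decide_eq_true_eq, Nat.dvd_prime hp] at e
        have := h2 q hq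
        omega
    · have p4 := Nat.minFac_prime (n := y.1) (by omega)
      have p2 := (Nat.not_prime_iff_minFac_lt b1).1 hp
      obtain ⟨m, hm'⟩ := Nat.minFac_dvd y.1
      generalize hq : y.1.minFac = p at p4 p2 hm'
      have p3 := p4.two_le
      have m1 : 1 < m := by by_contra e; interval_cases m <;> omega
      have m2 : m * p = y.1 := by rw [hm', mul_comm]
      have h6 := allL_iff.1 (allL_iff.1 h5 p (hd p p3 p2 ⟨m, hm'⟩)) m (hd m m1 (by nlinarith) ⟨p, m2.symm⟩)
      change IF(Nat.ble p m, IF(Nat.ble (m * p) last, true, IF(allL cur fun q => IF(DV(q, m * p),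
        IF(Nat.ble p q, memL ((m * p) / q) cur, false), true),
        IF(memL (m * p) O, p1 O k ((m * p) :: cur) (left - 1) (m * p), false), true)), true) = true at h6
      rw [m2, ble_eq' p, IF_eq, if_pos (decide_eq_true (hq ▸ Nat.minFac_le_of_dvd m1 ⟨p, m2.symm⟩)), ble_eq', IF_eq,
        if_neg (by simp; omega), IF_eq, if_pos] at h6
      · exact fin _ b2 h6
      · refine allL_iff.2 fun q hq' => ?_
        rw [DV_eq, ble_eq', IF_eq, IF_eq]
        simp only [decide_eq_true_eq]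
        split_ifs with a b
        · obtain ⟨c, d⟩ := h2 q hq'
          obtain ⟨r, hr⟩ := a
          rw [hr, Nat.mul_div_cancel_left _ (by omega), memL_iff]
          refine hd r ?_ ?_ ⟨q, by rw [hr, mul_comm]⟩
          · by_contra e; interval_cases r <;> omega
          · nlinarith
        · exact absurd (hq ▸ Nat.minFac_le_of_dvd (h2 q hq').1 a) b
        · rfl

theorem ord_mem {M g : ℕ} {L : List En} (A : Ax M g L) {O : List ℕ} {k : ℕ} (h : p1 O k [] M 1 = true) :
    ∀ y ∈ L, y.1 ∈ O := fun y hy =>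
  p1_sound A k [] M 1 h (fun y hy e => by have := (A.bas y hy).1; omega) (by simp)
    (A.sum ▸ ((List.filter_sublist (l := L)).map _).sum_le_sum (by simp)) y hy (A.bas y hy).1

/-- the decidable check of a table entry -/
def TC (M : ℕ) (t : TE) : Prop :=
  (∀ p ∈ t.p0 :: t.ps, 2 ≤ p ∧ isP p = true ∧ p ∣ t.o ∧ (p * p ∣ t.o ∨ t.o = p ∨ t.qM.testBit (t.o / p) = true)) ∧
  (t.p0 :: t.ps).Nodup ∧ 0 < t.o ∧ t.o ∣ (t.p0 :: t.ps).prod ^ 40 ∧ (t.pp = 0 ∨ (t.pp = t.p0 ∧ t.ps = [])) ∧
  (∀ d ∈ t.dv, 1 < d ∧ d < t.o ∧ d ∣ t.o) ∧ t.dv.Nodup ∧ t.dvM = mk t.dv ∧ (t.ss.Pairwise fun r r' => r.1 ≤ r'.1) ∧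
  (∀ s ∈ List.range' 1 M, s ∣ t.o / (t.p0 :: t.ps).prod * ((t.p0 :: t.ps).map (· - 1)).prod → ∃ r ∈ t.ss, r.1 = s) ∧
  ∀ r ∈ t.ss, r.2.1 = t.o / (t.p0 :: t.ps).prod * ((t.p0 :: t.ps).map (· - 1)).prod / r.1 ∧
    (∀ d ∈ r.2.2.1, 1 < d ∧ d ∣ r.2.1 ∧ t.pp ≠ 0 ∧ t.pp ≠ 2) ∧ r.2.2.2 = mk r.2.2.1

noncomputable instance (M : ℕ) (t : TE) : Decidable (TC M t) := by unfold TC; infer_instance

theorem TC.ok {M : ℕ} {t : TE} (h : TC M t) : TOK M t := by
  obtain ⟨h1, h2, h3, h4, h5, h6, -, h8, h9, h10, h11⟩ := h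
  have g1 : ∀ p ∈ t.p0 :: t.ps, p.Prime ∧ p ∣ t.o := fun p hp =>
    ⟨prime_of_isP (h1 p hp).1 (h1 p hp).2.1, (h1 p hp).2.2.1⟩
  have g2 : ∀ p, p.Prime → p ∣ t.o → p ∈ t.p0 :: t.ps := fun p a b => by
    obtain ⟨q, hq, e⟩ := (Prime.dvd_prod_iff a.prime).1 (a.dvd_of_dvd_pow (b.trans h4))
    rwa [(Nat.prime_dvd_prime_iff_eq a (g1 q hq).1).1 e]
  have g3 : Nat.totient t.o = t.o / (t.p0 :: t.ps).prod * ((t.p0 :: t.ps).map (· - 1)).prod := by
    have e : t.o.primeFactors = (t.p0 :: t.ps).toFinset := by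
      ext p
      rw [Nat.mem_primeFactors, List.mem_toFinset]
      exact ⟨fun e => g2 p e.1 e.2.1, fun e => ⟨(g1 p e).1, (g1 p e).2, h3.ne'⟩⟩
    rw [Nat.totient_eq_div_primeFactors_mul, e, List.prod_toFinset _ h2, List.prod_toFinset _ h2, List.map_id']
  refine ⟨g1 _ List.mem_cons_self, fun p hp => g1 p (List.mem_cons_of_mem _ hp),
    fun p a b => List.mem_cons.1 (g2 p a b), fun e => ?_, h6, fun k e => tb_mk.1 (h8 ▸ e), fun p d a b c e => ?_, h9,
    fun s a b c => h10 s (by rw [List.mem_range'_1]; omega) (g3 ▸ c),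
    fun r hr => ⟨g3 ▸ (h11 r hr).1, (h11 r hr).2.1, fun k e => tb_mk.1 ((h11 r hr).2.2 ▸ e)⟩⟩
  · obtain ⟨e1, e2⟩ := h5.resolve_left e
    rw [e1]
    exact ⟨(g1 _ List.mem_cons_self).1, _, Nat.eq_prime_pow_of_unique_prime_dvd h3.ne'
      fun {d} a b => by simpa [e2] using g2 d a b⟩
  · rcases (h1 p (g2 p a ⟨d, by rw [e, mul_comm]⟩)).2.2.2 with e1 | e1 | e1
    · rw [e] at e1; exact absurd (Nat.dvd_of_mul_dvd_mul_right a.pos e1) b
    · have := a.pos; nlinarith
    · rwa [e, Nat.mul_div_cancel _ a.pos] at e1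

theorem tabOK_of {M : ℕ} {tabs : ℕ → List TE} {full : List TE} (h1 : ∀ t ∈ full, TC M t)
    (h2 : ∀ j ∈ List.range (M + 1), tabs j = full.filter fun t => t.dv.length < j)
    (h3 : (full.map fun t => t.o).Pairwise (· ≤ ·)) : TabOK M tabs (full.map fun t => t.o) := by
  intro j hj
  rw [h2 j (List.mem_range.2 (by omega))]
  refine ⟨(List.pairwise_map.1 h3).filter _, fun t ht => (h1 t (List.mem_of_mem_filter ht)).ok, fun o ho => ?_⟩
  obtain ⟨t, ht, rfl⟩ := List.mem_map.1 ho
  by_cases e : t.dv.length < j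
  · exact Or.inl ⟨t, List.mem_filter.2 ⟨ht, by simpa using e⟩, rfl⟩
  · exact Or.inr ⟨t.dv, (h1 t ht).2.2.2.2.2.2.1, by omega, (h1 t ht).2.2.2.2.2.1⟩

end Cfsg.Agent.KC
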